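/-
A `q`-group acting on an abelian `p`-group without non-trivial common fixed points has an element
whose fixed-point subgroup has order at most the square root of the order of the group.
-/
import Mathlib

set_option autoImplicit false
set_option linter.style.haveILetI false

namespace CfsgLib.PrimitiveChar

variable {Q V : Type*} [Group Q] [CommGroup V]

/-- The fixed subgroup of an element. -/
def fix (φ : Q →* MulAut V) (x : Q) : Subgroup V :=
  (φ x).toMonoidHom.eqLocus (MonoidHom.id V)

theorem mem_fix {φ : Q →* MulAut V} {x : Q} {v : V} : v ∈ fix φ x ↔ φ x v = v := Iff.rfl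

/-- The product over the group of the orders of the fixed subgroups. -/
theorem sq_prod_card_fix_le [Fintype Q] [Finite V] {p q : ℕ} [Fact p.Prime] [Fact q.Prime]
    (hpq : p ≠ q) (hQ : IsPGroup q Q) (hV : IsPGroup p V) (φ : Q →* MulAut V)
    (hfix : ∀ v : V, (∀ x, φ x v = v) → v = 1) :
    (∏ x : Q, Nat.card (fix φ x)) ^ 2 ≤ Nat.card V ^ Fintype.card Q := by
  classical
  suffices key : ∀ (n : ℕ) (S : Subgroup V), Nat.card S ≤ n → (∀ x, ∀ v ∈ S, φ x v ∈ S) →
      (∏ x : Q, Nat.card (S ⊓ fix φ x : Subgroup V)) ^ 2 ≤ Nat.card S ^ Fintype.card Q by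
    have h := key _ (⊤ : Subgroup V) le_rfl (fun _ _ _ => Subgroup.mem_top _)
    simp only [top_inf_eq, Subgroup.card_top] at h
    exact h
  intro n
  induction n with
  | zero => intro S hS; exact absurd hS (by have := Nat.card_pos (α := S); omega)
  | succ n ih =>
    intro S hSn hinv
    by_cases hS : S = ⊥
    · subst hS
      simp
    -- the action on `S` is not trivial
    let K0 : Subgroup Q :=
      { carrier := {x | ∀ v ∈ S, φ x v = v}
        one_mem' := fun v _ => by rw [map_one]; rfl
        mul_mem' := fun {x y} hx hy v hv => by rw [map_mul, MulAut.mul_apply, hy v hv, hx v hv]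
        inv_mem' := fun {x} hx v hv => by
          conv_lhs => arg 2; rw [← hx v hv]
          rw [← MulAut.mul_apply, ← map_mul, inv_mul_cancel, map_one]; rfl }
    haveI hK0 : K0.Normal := ⟨fun k hk x v hv => by
      rw [map_mul, map_mul, MulAut.mul_apply, MulAut.mul_apply, hk _ (hinv x⁻¹ v hv),
        ← MulAut.mul_apply, ← map_mul, mul_inv_cancel, map_one]
      rfl⟩
    have hψ : K0 ≠ ⊤ := by
      intro h
      obtain ⟨v, hv, hv1⟩ := (Subgroup.bot_or_exists_ne_one S).resolve_left hS
      exact hv1 (hfix v fun x => h.ge (Subgroup.mem_top x) v hv)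
    haveI : Nontrivial (Q ⧸ K0) := by
      obtain ⟨x, -, hx⟩ := SetLike.exists_of_lt hψ.lt_top
      exact ⟨(x : Q ⧸ K0), 1, fun e => hx ((QuotientGroup.eq_one_iff x).1 e)⟩
    haveI := (hQ.to_quotient K0).center_nontrivial
    obtain ⟨⟨zb, hzb⟩, hz1⟩ := exists_ne (1 : Subgroup.center (Q ⧸ K0))
    obtain ⟨z, rfl⟩ := QuotientGroup.mk_surjective zb
    have hcomm : ∀ x, ∀ v ∈ S, φ z (φ x v) = φ x (φ z v) := by
      intro x v hv
      have h1 : ((z * x : Q) : Q ⧸ K0) = ((x * z : Q) : Q ⧸ K0) := by
        rw [QuotientGroup.mk_mul, QuotientGroup.mk_mul]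
        exact (Subgroup.mem_center_iff.1 hzb _).symm
      have h2 := QuotientGroup.eq.1 h1 v hv
      have h4 : φ (x * z) v = φ (z * x) v := by
        conv_lhs => rw [← mul_inv_cancel_left (z * x) (x * z), map_mul, MulAut.mul_apply, h2]
      simpa only [map_mul, MulAut.mul_apply] using h4.symm
    set W := S ⊓ fix φ z with hW
    have hWS : W < S := by
      refine lt_of_le_of_ne inf_le_left fun h => hz1 (Subtype.ext ((QuotientGroup.eq_one_iff z).2 ?_))
      exact fun v hv => mem_fix.1 (h.ge hv).2
    have hWinv : ∀ x, ∀ v ∈ W, φ x v ∈ W := fun x v hv => ⟨hinv x v hv.1, by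
      show φ z (φ x v) = φ x v
      rw [hcomm x v hv.1, mem_fix.1 hv.2]⟩
    have hWn : Nat.card W ≤ n := by
      have : Nat.card W < Nat.card S := lt_of_le_of_ne (Subgroup.card_le_of_le hWS.le) fun h =>
        hWS.ne (Subgroup.eq_of_le_of_card_ge hWS.le h.ge)
      omega
    -- the step for a pair `x`, `x * z`
    have hstep : ∀ x : Q,
        Nat.card (S ⊓ fix φ x : Subgroup V) * Nat.card (S ⊓ fix φ (x * z) : Subgroup V) * Nat.card W ≤
          Nat.card (W ⊓ fix φ x : Subgroup V) * Nat.card (W ⊓ fix φ (x * z) : Subgroup V) *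
            Nat.card S := by
      intro x
      set A := S ⊓ fix φ x with hA
      set B := S ⊓ fix φ (x * z) with hB
      let f : A × B →* V ⧸ W :=
        { toFun := fun ab => ((ab.1 * ab.2 : V) : V ⧸ W)
          map_one' := by simp
          map_mul' := fun ab cd => by
            simp only [Prod.fst_mul, Prod.snd_mul, Subgroup.coe_mul]
            rw [mul_mul_mul_comm, QuotientGroup.mk_mul] }
      have hker : f.ker ≤ ((W ⊓ fix φ x).subgroupOf A).prod ((W ⊓ fix φ (x * z)).subgroupOf B) := by
        rintro ⟨a, b⟩ hab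
        have hab' : (a : V) * b ∈ W := (QuotientGroup.eq_one_iff _).1 hab
        set w := (a : V) * b with hw
        have hxa : φ x (a : V) = a := mem_fix.1 a.2.2
        have hxzb : φ x (φ z (b : V)) = b := by
          have := mem_fix.1 b.2.2
          rwa [map_mul, MulAut.mul_apply] at this
        have hza : φ z (a : V) * (a : V)⁻¹ ∈ W := by
          have h1 : φ z (a : V) = φ x w * (b : V)⁻¹ := by
            rw [eq_mul_inv_iff_mul_eq, ← hxa, hcomm x a a.2.1]
            conv_lhs => arg 2; rw [← hxzb]
            rw [← map_mul, ← map_mul, show (a : V) * b = w from rfl, mem_fix.1 hab'.2]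
          rw [h1, show φ x w * (b : V)⁻¹ * (a : V)⁻¹ = φ x w * w⁻¹ by
            rw [hw, mul_inv_rev, mul_assoc]]
          exact mul_mem (hWinv x w hab') (inv_mem hab')
        set c := φ z (a : V) * (a : V)⁻¹ with hc
        have hzc : φ z c = c := mem_fix.1 hza.2
        have hpow : ∀ i : ℕ, φ (z ^ i) (a : V) = c ^ i * a := by
          intro i
          induction i with
          | zero => simp
          | succ i hi =>
            rw [pow_succ', map_mul, MulAut.mul_apply, hi, map_mul, map_pow (φ z), hzc,
              show φ z (a : V) = c * a by rw [hc, inv_mul_cancel_right], ← mul_assoc, ← pow_succ]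
        have hc1 : c = 1 := by
          have h1 := hpow (orderOf z)
          rw [pow_orderOf_eq_one, map_one, MulAut.one_apply, right_eq_mul] at h1
          obtain ⟨i, hi⟩ := IsPGroup.iff_orderOf.1 hQ z
          obtain ⟨j, hj⟩ := IsPGroup.iff_orderOf.1 hV c
          have h2 := orderOf_dvd_of_pow_eq_one h1
          rw [hi, hj] at h2
          have hcop : (p ^ j).Coprime (q ^ i) :=
            ((Nat.coprime_primes Fact.out Fact.out).2 hpq).pow j i
          exact orderOf_eq_one_iff.1 (hj.trans (Nat.eq_one_of_dvd_coprimes hcop dvd_rfl h2))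
        have haW : (a : V) ∈ W := ⟨a.2.1, mul_inv_eq_one.1 hc1⟩
        have hbW : (b : V) ∈ W := by
          have := mul_mem (inv_mem haW) hab'
          rwa [hw, inv_mul_cancel_left] at this
        exact ⟨⟨haW, a.2.2⟩, ⟨hbW, b.2.2⟩⟩
      have hkercard : Nat.card f.ker ≤
          Nat.card (W ⊓ fix φ x : Subgroup V) * Nat.card (W ⊓ fix φ (x * z) : Subgroup V) := by
        refine (Subgroup.card_le_of_le hker).trans (le_of_eq ?_)
        rw [Nat.card_congr (Subgroup.prodEquiv _ _).toEquiv, Nat.card_prod,
          Nat.card_congr (Subgroup.subgroupOfEquivOfLe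
            (show W ⊓ fix φ x ≤ A from inf_le_inf_right _ inf_le_left)).toEquiv,
          Nat.card_congr (Subgroup.subgroupOfEquivOfLe
            (show W ⊓ fix φ (x * z) ≤ B from inf_le_inf_right _ inf_le_left)).toEquiv]
      have hrange : Nat.card f.range * Nat.card W ≤ Nat.card S := by
        have h1 : f.range ≤ S.map (QuotientGroup.mk' W) := by
          rintro _ ⟨⟨a, b⟩, rfl⟩
          exact ⟨(a : V) * b, mul_mem a.2.1 b.2.1, rfl⟩
        refine (Nat.mul_le_mul_right _ (Subgroup.card_le_of_le h1)).trans (le_of_eq ?_)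
        rw [← Subgroup.relIndex_ker, QuotientGroup.ker_mk', mul_comm]
        exact Subgroup.relIndex_bot_left W ▸ Subgroup.relIndex_bot_left S ▸
          Subgroup.relIndex_mul_relIndex ⊥ W S bot_le hWS.le
      have hab : Nat.card A * Nat.card B = Nat.card f.ker * Nat.card f.range := by
        rw [← Nat.card_prod, ← f.ker.card_mul_index, Subgroup.index_ker]
      calc Nat.card A * Nat.card B * Nat.card W
          = Nat.card f.ker * (Nat.card f.range * Nat.card W) := by rw [hab, mul_assoc]
        _ ≤ _ := Nat.mul_le_mul hkercard hrange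
    have hprod := Finset.prod_le_prod' (s := Finset.univ) (fun x _ => hstep x)
    simp only [Finset.prod_mul_distrib, Finset.prod_const, Finset.card_univ] at hprod
    rw [show ∏ x : Q, Nat.card (S ⊓ fix φ (x * z) : Subgroup V) =
        ∏ x : Q, Nat.card (S ⊓ fix φ x : Subgroup V) from
          Equiv.prod_comp (Equiv.mulRight z) (fun x => Nat.card (S ⊓ fix φ x : Subgroup V)),
      show ∏ x : Q, Nat.card (W ⊓ fix φ (x * z) : Subgroup V) =
        ∏ x : Q, Nat.card (W ⊓ fix φ x : Subgroup V) from
          Equiv.prod_comp (Equiv.mulRight z) (fun x => Nat.card (W ⊓ fix φ x : Subgroup V))] at hprod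
    have hIH := ih W hWn hWinv
    rw [sq] at hIH ⊢
    refine Nat.le_of_mul_le_mul_right (hprod.trans ?_)
      (pow_pos (Nat.card_pos (α := W)) (Fintype.card Q))
    rw [mul_comm (Nat.card S ^ _) (Nat.card W ^ _)]
    exact Nat.mul_le_mul_right _ hIH

/-- Some element has few fixed points. -/
theorem exists_sq_card_fix_le [Finite Q] [Finite V] {p q : ℕ} [Fact p.Prime] [Fact q.Prime]
    (hpq : p ≠ q) (hQ : IsPGroup q Q) (hV : IsPGroup p V) (φ : Q →* MulAut V)
    (hfix : ∀ v : V, (∀ x, φ x v = v) → v = 1) :
    ∃ x : Q, Nat.card (fix φ x) ^ 2 ≤ Nat.card V := by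
  classical
  haveI := Fintype.ofFinite Q
  by_contra h
  push Not at h
  have h1 := sq_prod_card_fix_le hpq hQ hV φ hfix
  rw [← Finset.prod_pow, ← Finset.card_univ, ← Finset.prod_const] at h1
  exact absurd h1 (not_le.2 (Finset.prod_lt_prod_of_nonempty
    (fun _ _ => Nat.card_pos) (fun x _ => h x) Finset.univ_nonempty))

end CfsgLib.PrimitiveChar
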