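/-
A finite group acting on a finite abelian group, with a normal elementary abelian subgroup of coprime
order without non-trivial fixed points: on the (geometric) average at most half is fixed.
-/
import Cfsg.Agent.Lib.PrimitiveChar.SmallFixed

set_option autoImplicit false
set_option linter.style.haveILetI false
set_option linter.unusedSectionVars false

namespace CfsgLib.PrimitiveChar

variable {H V : Type*} [Group H] [Finite H] [CommGroup V] [Finite V]

/-- The elements fixed by all of a subgroup. -/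
def fixOf (φ : H →* MulAut V) (B : Subgroup H) : Subgroup V where
  carrier := {v | ∀ b ∈ B, φ b v = v}
  one_mem' := fun b _ => map_one _
  mul_mem' := fun {v w} hv hw b hb => by rw [map_mul, hv b hb, hw b hb]
  inv_mem' := fun {v} hv b hb => by rw [map_inv, hv b hb]

/-- The product of the images under a subgroup. -/
noncomputable def normHom (φ : H →* MulAut V) (B : Subgroup H) : V →* V :=
  letI := Fintype.ofFinite B
  ∏ b : B, (φ b).toMonoidHom

theorem normHom_apply (φ : H →* MulAut V) (B : Subgroup H) [Fintype B] (v : V) :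
    normHom φ B v = ∏ b : B, φ b v := by
  simp only [normHom, MonoidHom.finsetProd_apply, MulEquiv.coe_toMonoidHom]
  convert rfl

theorem normHom_mem_fixOf (φ : H →* MulAut V) (B : Subgroup H) (v : V) :
    normHom φ B v ∈ fixOf φ B := fun b hb => by
  letI := Fintype.ofFinite B
  rw [normHom_apply, map_prod]
  refine Fintype.prod_equiv (Equiv.mulLeft (⟨b, hb⟩ : B)) _ _ fun c => ?_
  rw [← MulAut.mul_apply, ← map_mul]
  rfl

theorem normHom_of_mem_fixOf (φ : H →* MulAut V) (B : Subgroup H) {v : V} (hv : v ∈ fixOf φ B) :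
    normHom φ B v = v ^ Nat.card B := by
  letI := Fintype.ofFinite B
  rw [normHom_apply, Finset.prod_congr rfl (fun (b : B) _ => hv b b.2), Finset.prod_const, Finset.card_univ,
    Nat.card_eq_fintype_card]

section Coset

variable {φ : H →* MulAut V} {A : Subgroup H} {r : ℕ} [Fact r.Prime]

/-- A subgroup of `A` with fixed points, maximal among these and covered by any further element. -/
theorem exists_hyperplane (hAc : ∀ a ∈ A, ∀ b ∈ A, a * b = b * a) (hAe : ∀ a ∈ A, a ^ r = 1)
    (hcop : r.Coprime (Nat.card V)) (S : Subgroup V) (hS : S ≠ ⊥) (hSi : ∀ a ∈ A, ∀ v ∈ S, φ a v ∈ S)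
    (hfix : ∀ v ∈ S, (∀ a ∈ A, φ a v = v) → v = 1) :
    ∃ B : Subgroup H, B ≤ A ∧ B ≠ A ∧ S ⊓ fixOf φ B ≠ ⊥ ∧
      ∀ a ∈ A, a ∉ B → B ⊔ Subgroup.zpowers a = A := by
  classical
  have hex : (fun B : Subgroup H => B ≤ A ∧ S ⊓ fixOf φ B ≠ ⊥) ⊥ := by
    refine ⟨bot_le, fun h => hS (le_bot_iff.1 (h ▸ le_inf le_rfl fun v _ b hb => ?_))⟩
    rw [Subgroup.mem_bot.1 hb, map_one]; rfl
  obtain ⟨B, -, ⟨hBA, hBS⟩, hmax⟩ :=
    Finite.exists_le_maximal (p := fun B : Subgroup H => B ≤ A ∧ S ⊓ fixOf φ B ≠ ⊥) hex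
  refine ⟨B, hBA, fun h => hBS (le_bot_iff.1 fun v hv => ?_), hBS, fun a1 ha1 ha1B => ?_⟩
  · exact Subgroup.mem_bot.2 (hfix v hv.1 fun a ha => hv.2 a (h.ge ha))
  by_contra hne
  set H1 := B ⊔ Subgroup.zpowers a1
  have hH1 : H1 ≤ A := sup_le hBA (Subgroup.zpowers_le.2 ha1)
  obtain ⟨a2, ha2, ha2H⟩ := SetLike.exists_of_lt (lt_of_le_of_ne hH1 hne)
  -- nothing in `S ⊓ C(B)` is fixed by a further element
  have hkill : ∀ c ∈ A, c ∉ B → ∀ v ∈ S ⊓ fixOf φ B, φ c v = v → v = 1 := by
    intro c hc hcB v hv hcv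
    by_contra hv1
    have hP : B ⊔ Subgroup.zpowers c ≤ A ∧ S ⊓ fixOf φ (B ⊔ Subgroup.zpowers c) ≠ ⊥ := by
      refine ⟨sup_le hBA (Subgroup.zpowers_le.2 hc), fun h => hv1 ?_⟩
      have hle : B ⊔ Subgroup.zpowers c ≤
          (MulAction.stabilizer (MulAut V) v).comap φ := by
        refine sup_le (fun b hb => hv.2 b hb) (Subgroup.zpowers_le.2 hcv)
      have : v ∈ S ⊓ fixOf φ (B ⊔ Subgroup.zpowers c) := ⟨hv.1, fun b hb => hle hb⟩
      rw [h] at this
      exact Subgroup.mem_bot.1 this
    exact hcB ((hmax hP le_sup_left) (Subgroup.mem_sup_right (Subgroup.mem_zpowers c)))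
  have hstab : ∀ c ∈ A, ∀ v ∈ S ⊓ fixOf φ B, φ c v ∈ S ⊓ fixOf φ B := fun c hc v hv =>
    ⟨hSi c hc v hv.1, fun b hb => by
      rw [← MulAut.mul_apply, ← map_mul, hAc b (hBA hb) c hc, map_mul, MulAut.mul_apply, hv.2 b hb]⟩
  -- the sum over a cyclic group moves into the fixed points
  have hcyc : ∀ c ∈ A, c ∉ B → ∀ v ∈ S ⊓ fixOf φ B,
      ∏ k ∈ Finset.range r, φ (c ^ k) v = 1 := by
    intro c hc hcB v hv
    refine hkill c hc hcB _ (Subgroup.prod_mem _ fun k _ => hstab _ (pow_mem hc k) v hv) ?_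
    rw [map_prod]
    have h1 := Finset.prod_range_succ (fun k => φ (c ^ k) v) r
    have h2 := Finset.prod_range_succ' (fun k => φ (c ^ k) v) r
    rw [h1, hAe c hc, pow_zero] at h2
    rw [mul_right_cancel h2]
    exact Finset.prod_congr rfl fun k _ => by rw [← MulAut.mul_apply, ← map_mul, ← pow_succ']
  obtain ⟨v, hv, hv1⟩ := (Subgroup.bot_or_exists_ne_one _).resolve_left hBS
  refine hv1 ?_
  have hb : ∀ i < r, a1 * a2 ^ i ∉ B := by
    intro i hi h
    have h2 : a2 ^ i ∈ H1 := by
      have := mul_mem (inv_mem (Subgroup.mem_sup_right (S := B) (Subgroup.mem_zpowers a1)))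
        (Subgroup.mem_sup_left (T := Subgroup.zpowers a1) h)
      rwa [inv_mul_cancel_left] at this
    rcases Nat.eq_zero_or_pos i with rfl | hi0
    · exact ha1B (by simpa using h)
    · obtain ⟨m, hm⟩ := exists_pow_eq_self_of_coprime (x := a2) (n := i)
        (Nat.Coprime.coprime_dvd_right (orderOf_dvd_of_pow_eq_one (hAe a2 ha2))
          ((Nat.Prime.coprime_iff_not_dvd (Fact.out : r.Prime)).2
            (Nat.not_dvd_of_pos_of_lt hi0 hi)).symm)
      exact ha2H (hm ▸ pow_mem h2 m)
  have hrow : ∀ k ∈ Finset.range r, k ≠ 0 →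
      ∏ i ∈ Finset.range r, φ ((a1 * a2 ^ i) ^ k) v = φ (a1 ^ k) (∏ i ∈ Finset.range r, φ (a2 ^ i) v) := by
    intro k hk hk0
    rw [map_prod]
    have hkr : k.Coprime r := ((Nat.Prime.coprime_iff_not_dvd (Fact.out : r.Prime)).2
      (Nat.not_dvd_of_pos_of_lt (Nat.pos_of_ne_zero hk0) (Finset.mem_range.1 hk))).symm
    have hinj : Set.InjOn (fun i => i * k % r) ↑(Finset.range r) := fun x hx y hy hxy => by
      have : x ≡ y [MOD r] := Nat.ModEq.cancel_right_of_coprime hkr.symm hxy
      exact this.eq_of_lt_of_lt (Finset.mem_range.1 hx) (Finset.mem_range.1 hy)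
    refine Finset.prod_nbij (fun i => i * k % r) ?_ hinj ?_ ?_
    · intro i _
      exact Finset.mem_range.2 (Nat.mod_lt _ (Fact.out : r.Prime).pos)
    · refine Finset.surjOn_of_injOn_of_card_le _ (fun i _ => ?_) hinj le_rfl
      exact Finset.mem_range.2 (Nat.mod_lt _ (Fact.out : r.Prime).pos)
    · intro i _
      have hc : Commute a1 (a2 ^ i) := hAc a1 ha1 _ (pow_mem ha2 i)
      rw [hc.mul_pow, map_mul, MulAut.mul_apply, ← pow_mul,
        ← pow_eq_pow_mod (i * k) (hAe a2 ha2)]
  have ha2B : a2 ∉ B := fun h => ha2H (Subgroup.mem_sup_left h)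
  have hv2 := hcyc a2 ha2 ha2B v hv
  have hone : ∏ k ∈ Finset.range r, ∏ i ∈ Finset.range r, φ ((a1 * a2 ^ i) ^ k) v = 1 := by
    rw [Finset.prod_comm]
    exact Finset.prod_eq_one fun i hi =>
      hcyc _ (mul_mem ha1 (pow_mem ha2 i)) (hb i (Finset.mem_range.1 hi)) v hv
  rw [Finset.prod_eq_single 0 (fun k hk hk0 => by rw [hrow k hk hk0, hv2, map_one])
    (fun h => absurd (Finset.mem_range.2 (Fact.out : r.Prime).pos) h)] at hone
  simp only [pow_zero, map_one, MulAut.one_apply, Finset.prod_const, Finset.card_range] at hone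
  obtain ⟨m, hm⟩ := exists_pow_eq_self_of_coprime (x := v) (n := r)
    (hcop.coprime_dvd_right (orderOf_dvd_natCard v))
  rw [← hm, hone, one_pow]

/-- On the coset `x A` at most half is fixed, on average. -/
theorem sq_prod_coset_le [Fintype A] (hAn : ∀ g : H, ∀ a ∈ A, g * a * g⁻¹ ∈ A)
    (hAc : ∀ a ∈ A, ∀ b ∈ A, a * b = b * a) (hAe : ∀ a ∈ A, a ^ r = 1)
    (hcop : r.Coprime (Nat.card V)) (hfix : ∀ v : V, (∀ a ∈ A, φ a v = v) → v = 1) (x : H) :
    (∏ a : A, Nat.card (fix φ (x * a))) ^ 2 ≤ Nat.card V ^ Fintype.card A := by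
  classical
  suffices key : ∀ (n : ℕ) (S : Subgroup V), Nat.card S ≤ n → (∀ a ∈ A, ∀ v ∈ S, φ a v ∈ S) →
      (∀ v ∈ S, φ x v ∈ S) →
      (∏ a : A, Nat.card (S ⊓ fix φ (x * a) : Subgroup V)) ^ 2 ≤ Nat.card S ^ Fintype.card A by
    have h := key _ (⊤ : Subgroup V) le_rfl (fun _ _ _ _ => Subgroup.mem_top _)
      (fun _ _ => Subgroup.mem_top _)
    simp only [top_inf_eq, Subgroup.card_top] at h
    exact h
  intro n
  induction n with
  | zero => intro S hS; exact absurd hS (by have := Nat.card_pos (α := S); omega)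
  | succ n ih =>
    intro S hSn hSA hSx
    by_cases hS : S = ⊥
    · subst hS
      simp
    obtain ⟨B, hBA, hBne, hBS, hcover⟩ :=
      exists_hyperplane hAc hAe hcop S hS hSA fun v _ h => hfix v h
    -- the conjugates of `B` under the powers of `x`
    let Bi : ℕ → Subgroup H := fun i => B.map (MulAut.conj (x ^ i)).toMonoidHom
    have hBiA : ∀ i, Bi i ≤ A := by
      rintro i _ ⟨b, hb, rfl⟩
      exact hAn _ b (hBA hb)
    have hmemBi : ∀ i h, h ∈ Bi i ↔ (x ^ i)⁻¹ * h * x ^ i ∈ B := by
      intro i h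
      constructor
      · rintro ⟨b, hb, rfl⟩
        show (x ^ i)⁻¹ * (x ^ i * b * (x ^ i)⁻¹) * x ^ i ∈ B
        simpa [mul_assoc] using hb
      · intro hb
        exact ⟨_, hb, show x ^ i * ((x ^ i)⁻¹ * h * x ^ i) * (x ^ i)⁻¹ = h by group⟩
    have hcoveri : ∀ i, ∀ a ∈ A, a ∉ Bi i → Bi i ⊔ Subgroup.zpowers a = A := by
      intro i a ha haB
      refine le_antisymm (sup_le (hBiA i) (Subgroup.zpowers_le.2 ha)) fun c hc => ?_
      set e : H →* H := (MulAut.conj (x ^ i)).toMonoidHom
      have h1 : (x ^ i)⁻¹ * a * x ^ i ∈ A := by simpa using hAn (x ^ i)⁻¹ a ha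
      have h2 : (x ^ i)⁻¹ * c * x ^ i ∈ A := by simpa using hAn (x ^ i)⁻¹ c hc
      rw [← hcover _ h1 fun h => haB ((hmemBi i a).2 h)] at h2
      have h3 : e ((x ^ i)⁻¹ * c * x ^ i) ∈ (B ⊔ Subgroup.zpowers ((x ^ i)⁻¹ * a * x ^ i)).map e :=
        ⟨_, h2, rfl⟩
      rw [Subgroup.map_sup, MonoidHom.map_zpowers] at h3
      have e1 : ∀ y, e ((x ^ i)⁻¹ * y * x ^ i) = y := fun y =>
        show x ^ i * ((x ^ i)⁻¹ * y * x ^ i) * (x ^ i)⁻¹ = y by group
      rwa [e1, e1] at h3
    have hdisj : ∀ i j, Bi i ≠ Bi j → ∀ v, v ∈ fixOf φ (Bi i) → v ∈ fixOf φ (Bi j) → v = 1 := by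
      intro i j hij v hvi hvj
      obtain ⟨a, haj, hai⟩ : ∃ a ∈ Bi j, a ∉ Bi i := by
        by_contra hcon
        push Not at hcon
        refine hij (Subgroup.eq_of_le_of_card_ge hcon ?_).symm
        rw [Subgroup.card_map_of_injective (MulEquiv.injective _),
          Subgroup.card_map_of_injective (MulEquiv.injective _)]
      refine hfix v fun c hc => ?_
      rw [← hcoveri i a (hBiA j haj) hai] at hc
      exact (sup_le (fun b hb => hvi b hb) (Subgroup.zpowers_le.2 (hvj a haj)) :
        Bi i ⊔ Subgroup.zpowers a ≤ (MulAction.stabilizer (MulAut V) v).comap φ) hc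
    have hstab : ∀ i, ∀ c ∈ A, ∀ v ∈ fixOf φ (Bi i), φ c v ∈ fixOf φ (Bi i) := fun i c hc v hv b hb => by
      rw [← MulAut.mul_apply, ← map_mul, hAc b (hBiA i hb) c hc, map_mul, MulAut.mul_apply, hv b hb]
    -- the projections
    have hBcop : ∀ i, (Nat.card (Bi i)).Coprime (Nat.card V) := fun i => by
      obtain ⟨k, hk⟩ := IsPGroup.iff_card.1 (show IsPGroup r (Bi i) from fun b =>
        ⟨1, Subtype.ext (by simpa using hAe _ (hBiA i b.2))⟩)
      rw [hk]
      exact hcop.pow_left k
    have hcardBi : ∀ i, Nat.card (Bi i) = Nat.card B := fun i =>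
      Subgroup.card_map_of_injective (MulEquiv.injective _)
    obtain ⟨t, ht⟩ : ∃ t : ℕ, ∀ v : V, v ^ (Nat.card B * t) = v := by
      have h0 : (Nat.card B).Coprime (Nat.card V) := hcardBi 0 ▸ hBcop 0
      obtain ⟨t, ht⟩ := Nat.exists_mul_mod_eq_of_coprime 1 h0 Nat.card_pos.ne'
      refine ⟨t, fun v => ?_⟩
      rw [pow_eq_pow_mod _ (pow_card_eq_one' (x := v)), ht.2,
        ← pow_eq_pow_mod _ (pow_card_eq_one' (x := v)), pow_one]
    let e : ℕ → V →* V := fun i => (normHom φ (Bi i)) ^ t
    have hemem : ∀ i v, e i v ∈ fixOf φ (Bi i) := fun i v =>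
      Subgroup.pow_mem _ (normHom_mem_fixOf φ (Bi i) v) t
    have hefix : ∀ i, ∀ v ∈ fixOf φ (Bi i), e i v = v := fun i v hv => by
      show (normHom φ (Bi i) v) ^ t = v
      rw [normHom_of_mem_fixOf φ _ hv, hcardBi, ← pow_mul, ht]
    have hkill : ∀ i j, Bi i ≠ Bi j → ∀ v ∈ fixOf φ (Bi j), e i v = 1 := fun i j hij v hv => by
      letI := Fintype.ofFinite (Bi i)
      refine hdisj i j hij _ (hemem i v) (Subgroup.pow_mem _ ?_ t)
      rw [normHom_apply]
      exact Subgroup.prod_mem _ fun b _ => hstab j b (hBiA i b.2) v hv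
    have heq : ∀ i a, a ∈ A → ∀ v, φ (x * a) (e i v) = e (i + 1) (φ (x * a) v) := by
      intro i a ha v
      letI := Fintype.ofFinite (Bi i)
      letI := Fintype.ofFinite (Bi (i + 1))
      show φ (x * a) (normHom φ (Bi i) v ^ t) = normHom φ (Bi (i + 1)) _ ^ t
      rw [map_pow, normHom_apply, normHom_apply, map_prod]
      congr 1
      have hmem : ∀ b : Bi i, x * (b : H) * x⁻¹ ∈ Bi (i + 1) := fun b => (hmemBi _ _).2 (by
        have h := (hmemBi i b).1 b.2
        convert h using 1
        rw [pow_succ']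
        group)
      refine Fintype.prod_bijective (fun b : Bi i => (⟨_, hmem b⟩ : Bi (i + 1)))
        ((Fintype.bijective_iff_injective_and_card _).2 ⟨fun b c h => Subtype.ext
          (mul_left_cancel (mul_right_cancel (congrArg Subtype.val h))),
          by rw [← Nat.card_eq_fintype_card, ← Nat.card_eq_fintype_card, hcardBi, hcardBi]⟩) _ _
        fun b => ?_
      simp only [← MulAut.mul_apply, ← map_mul]
      congr 2
      simp only [mul_assoc]
      rw [inv_mul_cancel_left, hAc (b : H) (hBiA i b.2) a ha]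
    -- the distinct conjugates
    set N := orderOf x with hN
    have hperiod : ∀ i, Bi i = Bi (i % N) := fun i => by
      show B.map _ = B.map _
      rw [hN, pow_mod_orderOf]
    let I : Finset ℕ := (Finset.range N).filter fun i => ∀ j < i, Bi j ≠ Bi i
    have hI : ∀ i, ∃ j ∈ I, Bi j = Bi i := by
      intro i
      have hex : ∃ j, j < N ∧ Bi j = Bi i :=
        ⟨i % N, Nat.mod_lt _ (orderOf_pos x), (hperiod i).symm⟩
      refine ⟨Nat.find hex, Finset.mem_filter.2 ⟨Finset.mem_range.2 (Nat.find_spec hex).1,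
        fun j hj h => Nat.find_min hex hj ⟨hj.trans (Nat.find_spec hex).1,
          h.trans (Nat.find_spec hex).2⟩⟩, (Nat.find_spec hex).2⟩
    have hIinj : ∀ i ∈ I, ∀ j ∈ I, Bi i = Bi j → i = j := fun i hi j hj h => by
      rcases lt_trichotomy i j with hlt | heq | hgt
      · exact absurd h ((Finset.mem_filter.1 hj).2 i hlt)
      · exact heq
      · exact absurd h.symm ((Finset.mem_filter.1 hi).2 j hgt)
    have he_congr : ∀ i j, Bi i = Bi j → e i = e j := fun i j h => by
      show normHom φ (Bi i) ^ t = normHom φ (Bi j) ^ t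
      rw [h]
    let E : V →* V := ∏ i ∈ I, e i
    have hEE : ∀ i, ∀ v, e i (E v) = e i v := by
      intro i v
      obtain ⟨j, hj, hji⟩ := hI i
      simp only [E, MonoidHom.finsetProd_apply, map_prod]
      rw [Finset.prod_eq_single j (fun k hk hkj => hkill i k (fun h =>
          hkj (hIinj k hk j hj (h.symm.trans hji.symm))) _ (hemem k v))
        (fun h => absurd hj h), he_congr j i hji]
      exact hefix i _ (hemem i v)
    have hEcomm : ∀ a ∈ A, ∀ v, φ (x * a) (E v) = E (φ (x * a) v) := by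
      intro a ha v
      simp only [E, MonoidHom.finsetProd_apply, map_prod]
      rw [Finset.prod_congr rfl fun i _ => heq i a ha v]
      have hf : ∀ i ∈ I, ∃ j ∈ I, Bi j = Bi (i + 1) := fun i _ => hI (i + 1)
      choose f hfI hfB using hf
      have hinj : ∀ i hi j hj, f i hi = f j hj → i = j := fun i hi j hj h => by
        refine hIinj i hi j hj ?_
        have h1 : Bi (i + 1) = Bi (j + 1) := (hfB i hi).symm.trans ((congrArg Bi h).trans (hfB j hj))
        ext y
        have h2 : x * y * x⁻¹ ∈ Bi (i + 1) ↔ x * y * x⁻¹ ∈ Bi (j + 1) := by rw [h1]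
        have h3 : ∀ m, x * y * x⁻¹ ∈ Bi (m + 1) ↔ y ∈ Bi m := fun m => by
          rw [hmemBi, hmemBi, pow_succ']
          simp [mul_assoc]
        rwa [h3, h3] at h2
      refine Finset.prod_bij f hfI (fun i hi j hj => hinj i hi j hj) (fun j hj => ?_)
        (fun i hi => by rw [he_congr _ _ (hfB i hi)])
      obtain ⟨i, hiI, hi⟩ := Finset.surj_on_of_inj_on_of_card_le f hfI (fun i j hi hj => hinj i hi j hj)
        le_rfl j hj
      exact ⟨i, hiI, hi.symm⟩
    -- the two invariant pieces
    set W : Subgroup V := S.map E with hW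
    set W' : Subgroup V := S ⊓ E.ker with hW'
    have hES : ∀ v ∈ S, E v ∈ S := by
      intro v hv
      simp only [E, MonoidHom.finsetProd_apply]
      refine Subgroup.prod_mem _ fun i _ => Subgroup.pow_mem _ ?_ t
      letI := Fintype.ofFinite (Bi i)
      rw [normHom_apply]
      exact Subgroup.prod_mem _ fun b _ => hSA b (hBiA i b.2) v hv
    have hWS : W ≤ S := by rintro _ ⟨v, hv, rfl⟩; exact hES v hv
    have hEidem : ∀ v, E (E v) = E v := by
      intro v
      conv_lhs => simp only [E, MonoidHom.finsetProd_apply]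
      simp only [E, MonoidHom.finsetProd_apply]
      exact Finset.prod_congr rfl fun i _ => by
        rw [← MonoidHom.finsetProd_apply]; exact hEE i v
    have hWcard : Nat.card W * Nat.card W' = Nat.card S := by
      have h1 := (E.comp S.subtype).ker.card_mul_index
      rw [Subgroup.index_ker, ← mul_comm] at h1
      have h2 : (E.comp S.subtype).range = W := by
        rw [MonoidHom.range_eq_map, ← Subgroup.map_map, ← MonoidHom.range_eq_map, Subgroup.range_subtype]
      have h3 : Nat.card (E.comp S.subtype).ker = Nat.card W' := by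
        rw [← Subgroup.card_map_of_injective S.subtype_injective, hW']
        congr 2
        ext v
        exact ⟨fun ⟨s, hs, hsv⟩ => hsv ▸ ⟨s.2, hs⟩, fun hv => ⟨⟨v, hv.1⟩, hv.2, rfl⟩⟩
      rw [h2, h3] at h1
      exact h1
    have hsplit : ∀ a : A, Nat.card (S ⊓ fix φ (x * a) : Subgroup V) ≤
        Nat.card (W ⊓ fix φ (x * a) : Subgroup V) * Nat.card (W' ⊓ fix φ (x * a) : Subgroup V) := by
      intro a
      rw [← Nat.card_prod]
      refine Nat.card_le_card_of_injective (fun v => (⟨E v, ⟨v, v.2.1, rfl⟩, ?_⟩,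
        ⟨(v : V) * (E v)⁻¹, ⟨S.mul_mem v.2.1 (S.inv_mem (hES v v.2.1)), ?_⟩, ?_⟩)) ?_
      · show φ (x * a) (E v) = E v
        rw [hEcomm a a.2, mem_fix.1 v.2.2]
      · show E ((v : V) * (E v)⁻¹) = 1
        rw [map_mul, map_inv, hEidem, mul_inv_cancel]
      · show φ (x * a) ((v : V) * (E v)⁻¹) = (v : V) * (E v)⁻¹
        rw [map_mul, map_inv, hEcomm a a.2, mem_fix.1 v.2.2]
      · intro v w h
        have h1 : E v = E w := congrArg Subtype.val (congrArg Prod.fst h)
        have h2 : (v : V) * (E v)⁻¹ = (w : V) * (E w)⁻¹ := congrArg Subtype.val (congrArg Prod.snd h)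
        rw [h1] at h2
        exact Subtype.ext (mul_right_cancel h2)
    -- the smaller piece, by induction
    obtain ⟨v0, hv0, hv01⟩ := (Subgroup.bot_or_exists_ne_one _).resolve_left hBS
    have hB0 : Bi 0 = B := by
      ext y
      rw [hmemBi, pow_zero]
      simp
    have hW'lt : Nat.card W' ≤ n := by
      have hv0E : E v0 ≠ 1 := fun h => hv01 (by
        have h1 := hEE 0 v0
        rw [h, map_one, hefix 0 v0 (hB0.symm ▸ hv0.2)] at h1
        exact h1.symm)
      have hlt : W' < S := lt_of_le_of_ne inf_le_left fun h => hv0E (h.ge hv0.1).2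
      have : Nat.card W' < Nat.card S := lt_of_le_of_ne (Subgroup.card_le_of_le hlt.le) fun h =>
        hlt.ne (Subgroup.eq_of_le_of_card_ge hlt.le h.ge)
      omega
    have hEx : ∀ v, φ x (E v) = E (φ x v) := fun v => by
      have := hEcomm 1 (one_mem A) v
      rwa [mul_one] at this
    have hW'A : ∀ a ∈ A, ∀ v ∈ W', φ a v ∈ W' := fun a ha v hv => ⟨hSA a ha v hv.1, by
      have h1 := hEcomm a ha v
      rw [show E v = 1 from hv.2, map_one, map_mul, MulAut.mul_apply, ← hEx] at h1
      exact (φ x).injective (h1.symm.trans (map_one _).symm)⟩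
    have hIH := ih W' hW'lt hW'A (fun v hv => ⟨hSx v hv.1, by
      show E (φ x v) = 1
      rw [← hEx, show E v = 1 from hv.2, map_one]⟩)
    -- the piece spanned by the conjugates
    have hWmem : ∀ v ∈ W, E v = v := by rintro _ ⟨u, -, rfl⟩; exact hEidem u
    have hWbound : (∏ a : A, Nat.card (W ⊓ fix φ (x * a) : Subgroup V)) ^ 2 ≤
        Nat.card W ^ Fintype.card A := by
      have hinjW : ∀ {L M : Subgroup V}, L ≤ W → M ≤ W → (∀ v ∈ L, v ∈ M → v = 1) →
          Nat.card L * Nat.card M ≤ Nat.card W := by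
        intro L M hL hM h
        rw [← Nat.card_prod]
        refine Nat.card_le_card_of_injective
          (fun lm => (⟨(lm.1 : V) * lm.2, mul_mem (hL lm.1.2) (hM lm.2.2)⟩ : W)) ?_
        rintro ⟨l, m⟩ ⟨l', m'⟩ he
        have he' : (l : V) * m = l' * m' := congrArg Subtype.val he
        have h1 : (l' : V)⁻¹ * l = m' * (m : V)⁻¹ := by
          rw [eq_mul_inv_iff_mul_eq, mul_assoc, he', inv_mul_cancel_left]
        have h2 := h _ (mul_mem (inv_mem l'.2) l.2) (h1 ▸ mul_mem m'.2 (inv_mem m.2))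
        have h3 : (l : V) = l' := (inv_mul_eq_one.1 h2).symm
        rw [h3] at he'
        exact Prod.ext (Subtype.ext h3) (Subtype.ext (mul_left_cancel he'))
      have hEfix : ∀ k, ∀ v ∈ fixOf φ (Bi k), E v = v := by
        intro k v hv
        obtain ⟨j, hj, hjk⟩ := hI k
        simp only [E, MonoidHom.finsetProd_apply]
        rw [Finset.prod_eq_single j (fun i hi hij => hkill i j (fun h => hij (hIinj i hi j hj h)) v
            (hjk.symm ▸ hv)) (fun h => absurd hj h), he_congr j k hjk]
        exact hefix k v hv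
      by_cases hx : Bi 1 = Bi 0
      · -- `x` normalises `B`
        obtain ⟨a0, ha0, ha0B⟩ := SetLike.exists_of_lt (lt_of_le_of_ne hBA hBne)
        have hall : ∀ i, Bi i = B := by
          intro i
          induction i with
          | zero => exact hB0
          | succ i hi =>
            ext y
            have h1 : x⁻¹ * y * x ∈ Bi i ↔ x⁻¹ * y * x ∈ B := by rw [hi]
            have h2 : x⁻¹ * y * x ∈ Bi i ↔ y ∈ Bi (i + 1) := by
              rw [hmemBi, hmemBi, pow_succ']
              simp [mul_assoc]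
            have h3 : x⁻¹ * y * x ∈ B ↔ y ∈ B := by
              have h4 : y ∈ Bi 1 ↔ y ∈ B := by rw [hx, hB0]
              rw [hmemBi, pow_one] at h4
              exact h4
            rw [← h2, h1, h3]
        have hWfix : ∀ v ∈ W, v ∈ fixOf φ B := by
          rintro _ ⟨u, -, rfl⟩
          simp only [E, MonoidHom.finsetProd_apply]
          exact Subgroup.prod_mem _ fun i _ => hall i ▸ hemem i u
        have hpair : ∀ a : A, Nat.card (W ⊓ fix φ (x * a) : Subgroup V) *
            Nat.card (W ⊓ fix φ (x * (a * ⟨a0, ha0⟩ : A)) : Subgroup V) ≤ Nat.card W := by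
          intro a
          refine hinjW inf_le_left inf_le_left fun v hv hv' => hfix v fun c hc => ?_
          have h1 : φ a0 v = v := by
            have h2 : φ (x * a) (φ a0 v) = v := by
              rw [← MulAut.mul_apply, ← map_mul, mul_assoc]
              exact mem_fix.1 hv'.2
            exact (φ (x * a)).injective (h2.trans (mem_fix.1 hv.2).symm)
          rw [← hcover a0 ha0 ha0B] at hc
          exact (sup_le (fun b hb => hWfix v hv.1 b hb) (Subgroup.zpowers_le.2 h1) :
            B ⊔ Subgroup.zpowers a0 ≤ (MulAction.stabilizer (MulAut V) v).comap φ) hc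
        calc (∏ a : A, Nat.card (W ⊓ fix φ (x * a) : Subgroup V)) ^ 2
            = ∏ a : A, Nat.card (W ⊓ fix φ (x * a) : Subgroup V) *
                Nat.card (W ⊓ fix φ (x * (a * ⟨a0, ha0⟩ : A)) : Subgroup V) := by
              rw [Finset.prod_mul_distrib, sq]
              congr 1
              exact (Fintype.prod_equiv (Equiv.mulRight (⟨a0, ha0⟩ : A)) _
                (fun a : A => Nat.card (W ⊓ fix φ (x * a) : Subgroup V)) fun a => rfl).symm
          _ ≤ ∏ _a : A, Nat.card W := Finset.prod_le_prod' fun a _ => hpair a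
          _ = Nat.card W ^ Fintype.card A := by rw [Finset.prod_const, Finset.card_univ]
      · -- `x` moves `B`
        rw [← Finset.prod_pow, ← Finset.card_univ (α := A), ← Finset.prod_const]
        refine Finset.prod_le_prod' fun a _ => ?_
        have he0 : ∀ k, W.map (e k) ≤ W := by
          rintro k _ ⟨w, hw, rfl⟩
          refine ⟨e k w, ?_, hEfix k _ (hemem k w)⟩
          refine Subgroup.pow_mem _ ?_ t
          letI := Fintype.ofFinite (Bi k)
          rw [normHom_apply]
          exact Subgroup.prod_mem _ fun b _ => hSA b (hBiA k b.2) w (hWS hw)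
        have hL : Nat.card (W ⊓ fix φ (x * a) : Subgroup V) ≤ Nat.card (W.map (e 0)) := by
          refine Nat.card_le_card_of_injective (fun v => ⟨e 0 v, v, v.2.1, rfl⟩) fun v w h => ?_
          have hvw : e 0 v = e 0 w := congrArg Subtype.val h
          set u : V := (v : V) * (w : V)⁻¹
          have hu : u ∈ W ⊓ fix φ (x * a) := mul_mem v.2 (inv_mem w.2)
          have hall : ∀ i, e i u = 1 := by
            intro i
            induction i with
            | zero => rw [map_mul, map_inv, hvw, mul_inv_cancel]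
            | succ i hi =>
              have h1 := heq i a a.2 u
              rw [hi, map_one, mem_fix.1 hu.2] at h1
              exact h1.symm
          have hu1 : u = 1 := by
            rw [← hWmem u hu.1]
            simp only [E, MonoidHom.finsetProd_apply]
            exact Finset.prod_eq_one fun i _ => hall i
          exact Subtype.ext (mul_inv_eq_one.1 hu1)
        have hT : Nat.card (W.map (e 0)) ≤ Nat.card (W.map (e 1)) := by
          have hmem : ∀ v ∈ W.map (e 0), φ (x * a) v ∈ W.map (e 1) := by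
            rintro _ ⟨w, ⟨s, hs, rfl⟩, rfl⟩
            refine ⟨φ (x * a) (E s), ⟨φ (x * a) s, ?_, (hEcomm a a.2 s).symm⟩, (heq 0 a a.2 _).symm⟩
            rw [map_mul, MulAut.mul_apply]
            exact hSx _ (hSA a a.2 s hs)
          exact Nat.card_le_card_of_injective (fun v => ⟨_, hmem v v.2⟩) fun v w h =>
            Subtype.ext ((φ (x * a)).injective (congrArg Subtype.val h))
        calc Nat.card (W ⊓ fix φ (x * a) : Subgroup V) ^ 2
            ≤ Nat.card (W.map (e 0)) * Nat.card (W.map (e 1)) := by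
              rw [sq]; exact Nat.mul_le_mul hL (hL.trans hT)
          _ ≤ Nat.card W := hinjW (he0 0) (he0 1) (by
              rintro _ ⟨w, -, rfl⟩ ⟨w', -, hw'⟩
              exact hdisj 0 1 (fun h => hx h.symm) _ (hemem 0 w) (hw' ▸ hemem 1 w'))
    calc (∏ a : A, Nat.card (S ⊓ fix φ (x * a) : Subgroup V)) ^ 2
        ≤ ((∏ a : A, Nat.card (W ⊓ fix φ (x * a) : Subgroup V)) *
            ∏ a : A, Nat.card (W' ⊓ fix φ (x * a) : Subgroup V)) ^ 2 := by
          rw [← Finset.prod_mul_distrib]
          exact Nat.pow_le_pow_left (Finset.prod_le_prod' fun a _ => hsplit a) 2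
      _ ≤ Nat.card W ^ Fintype.card A * Nat.card W' ^ Fintype.card A := by
          rw [mul_pow]
          exact Nat.mul_le_mul hWbound hIH
      _ = Nat.card S ^ Fintype.card A := by rw [← mul_pow, hWcard]

end Coset

end CfsgLib.PrimitiveChar

namespace CfsgLib.PrimitiveChar

/-- A group with a normal elementary abelian subgroup of coprime exponent without non-trivial fixed
points fixes at most half, on the (geometric) average. -/
theorem sq_prod_fix_le {H V : Type*} [Group H] [Finite H] [CommGroup V] [Finite V] [Fintype H]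
    {φ : H →* MulAut V} {A : Subgroup H} {r : ℕ} [Fact r.Prime]
    (hAn : ∀ g : H, ∀ a ∈ A, g * a * g⁻¹ ∈ A)
    (hAc : ∀ a ∈ A, ∀ b ∈ A, a * b = b * a) (hAe : ∀ a ∈ A, a ^ r = 1)
    (hcop : r.Coprime (Nat.card V)) (hfix : ∀ v : V, (∀ a ∈ A, φ a v = v) → v = 1) :
    (∏ h : H, Nat.card (fix φ h)) ^ 2 ≤ Nat.card V ^ Fintype.card H := by
  classical
  letI := Fintype.ofFinite A
  refine (Nat.pow_le_pow_iff_left (n := Fintype.card A) Fintype.card_ne_zero).1 ?_
  calc ((∏ h : H, Nat.card (fix φ h)) ^ 2) ^ Fintype.card A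
      = ∏ x : H, (∏ a : A, Nat.card (fix φ (x * a))) ^ 2 := by
        rw [Finset.prod_pow, Finset.prod_comm,
          Finset.prod_congr rfl fun (a : A) _ => Fintype.prod_equiv (Equiv.mulRight (a : H))
            (fun x : H => Nat.card (fix φ (x * a))) (fun x => Nat.card (fix φ x)) fun x => rfl,
          Finset.prod_const, Finset.card_univ, ← pow_mul, ← pow_mul, mul_comm]
    _ ≤ ∏ _x : H, Nat.card V ^ Fintype.card A :=
        Finset.prod_le_prod' fun x _ => sq_prod_coset_le hAn hAc hAe hcop hfix x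
    _ = (Nat.card V ^ Fintype.card H) ^ Fintype.card A := by
        rw [Finset.prod_const, Finset.card_univ, ← pow_mul, ← pow_mul, mul_comm]

end CfsgLib.PrimitiveChar
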