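/-
Restrictions of a primitive character: homogeneity, the scalar subgroup, and irreducibility of the
restriction to a normal subgroup with nilpotent quotient.
-/
import Cfsg.Agent.Lib.CharTheory.Monomial
import Cfsg.Agent.Lib.RealChar.Extension
import Cfsg.Agent.Lib.Clifford.Gallagher

set_option autoImplicit false
set_option linter.unusedSectionVars false
set_option linter.style.haveILetI false

open scoped ComplexConjugate commutatorElement
open Cfsg CfsgLib.CharTheory

namespace CfsgLib.PrimitiveChar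

universe u

variable {G : Type u} [Group G]

/-- An irreducible character over an invariant character of a normal subgroup with cyclic quotient
has the same degree. -/
theorem apply_one_eq_of_cyclic [Fintype G] {N : Subgroup G} [N.Normal] [Fintype N]
    (hcyc : IsCyclic (G ⧸ N)) {ξ : G → ℂ} (hξ : IsIrrCharacter G ξ) {θ : N → ℂ}
    (hθ : IsIrrCharacter N θ) (hinv : ∀ g, CfsgLib.Clifford.conjChar N θ g = θ)
    (hne : classInner (fun n : N => ξ n) θ ≠ 0) : ξ 1 = θ 1 := by
  classical
  obtain ⟨η, hη, hηext⟩ := CfsgLib.RealChar.exists_extension_character_of_cyclic N hcyc θ hθ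
    fun g n => by
      have h := congrFun (hinv g) n
      rw [CfsgLib.Clifford.conjChar_apply] at h
      convert h using 2
      exact Subtype.ext (MulAut.conjNormal_apply g n)
  have h1inv : ∀ g : G, CfsgLib.Clifford.conjChar N (fun _ : N => (1 : ℂ)) g = fun _ => 1 :=
    fun g => rfl
  have hprod : IsIrrCharacter N ((fun _ : N => (1 : ℂ)) * θ) := by
    rwa [show (fun _ : N => (1 : ℂ)) * θ = θ from one_mul θ]
  have hind : classInner (Cfsg.indFun N ((fun _ : N => (1 : ℂ)) * θ)) ξ ≠ 0 := by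
    rw [show (fun _ : N => (1 : ℂ)) * θ = θ from one_mul θ,
      CfsgLib.Frobenius.classInner_indFun N θ ξ (IsIrrCharacter.isClassFunction hξ),
      classInner_conj_symm]
    exact fun h => hne (by simpa using h)
  obtain ⟨β, ⟨hβ, hβne⟩, hβξ⟩ := (CfsgLib.Clifford.gallagher_bijOn (G := G) isIrrCharacter_one h1inv
    hinv hprod hη hηext).surjOn ⟨hξ, hind⟩
  have hconst : ∀ k ∈ N, β k = β 1 := fun k hk => by
    simpa using CfsgLib.Clifford.apply_mul_of_over_one (N := N) hβ hβne ⟨k, hk⟩ 1
  have hcomm : ∀ a b : G ⧸ N, a * b = b * a := fun a b =>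
    (IsCyclic.commGroup (α := G ⧸ N)).mul_comm a b
  obtain ⟨ψ, hψ, hψβ⟩ := exists_descend hβ N hconst
  have hβ1 : β 1 = 1 := by
    rw [hψβ 1, QuotientGroup.mk_one]
    exact apply_one_eq_one_of_comm hcomm hψ
  rw [← hβξ]
  simp only [Pi.mul_apply]
  rw [hβ1, one_mul, ← hηext 1, OneMemClass.coe_one]

variable [Fintype G]

/-- Primitivity: no proper subgroup induces the character. -/
def IsPrim (χ : G → ℂ) : Prop :=
  ¬ ∃ (H : Subgroup G), H ≠ ⊤ ∧ ∃ θ : H → ℂ, IsCharacter H θ ∧ Cfsg.indFun H θ = χ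

variable {χ : G → ℂ}

/-- Primitive characters are homogeneous on normal subgroups. -/
theorem exists_homogeneous (hχ : IsIrrCharacter G χ) (hp : IsPrim χ) (N : Subgroup G) [N.Normal]
    [Fintype N] :
    ∃ (θ : N → ℂ) (e : ℕ), IsIrrCharacter N θ ∧ (∀ g, CfsgLib.Clifford.conjChar N θ g = θ) ∧
      e ≠ 0 ∧ classInner (fun n : N => χ n) θ = e ∧ ∀ n : N, χ n = e * θ n := by
  classical
  obtain ⟨θ, hθ⟩ := exists_constituent N (IsIrrCharacter.isCharacter hχ) (apply_one_ne_zero_of_isIrr hχ)
  have hTtop : inertia N (θ : N → ℂ) = ⊤ := by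
    by_contra hT
    haveI := Fintype.ofFinite (inertia N (θ : N → ℂ))
    obtain ⟨ψ, hψ, hind, -⟩ := CfsgLib.Clifford.exists_indFun_inertia_eq θ.2
      (mem_inertia N (θ : N → ℂ)) (le_inertia N (IsIrrCharacter.isClassFunction θ.2)) hχ hθ
    exact hp ⟨_, hT, ψ, IsIrrCharacter.isCharacter hψ, hind⟩
  have hinv : ∀ g : G, CfsgLib.Clifford.conjChar N (θ : N → ℂ) g = θ := fun g =>
    (mem_inertia N (θ : N → ℂ) g).1 (hTtop ▸ Subgroup.mem_top g)
  obtain ⟨e, he⟩ := IsCharacter.exists_classInner_eq_nat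
    (CfsgLib.Coherence.isCharacter_comp (IsIrrCharacter.isCharacter hχ) N.subtype) θ
  have he' : classInner (fun n : N => χ n) (θ : N → ℂ) = e := he
  refine ⟨θ, e, θ.2, hinv, fun h => hθ (by rw [he', h, Nat.cast_zero]), he', fun n => ?_⟩
  have h := congrFun (CfsgLib.Clifford.res_eq_of_invariant N hχ θ.2 hinv hθ) n
  rw [he'] at h
  exact h

/-- The elements acting as scalars: a normal subgroup, multiplicative and central modulo the kernel. -/
theorem exists_scalar_subgroup (hχ : IsIrrCharacter G χ) :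
    ∃ Z K : Subgroup G, Z.Normal ∧ K.Normal ∧ (∀ g, g ∈ Z ↔ ‖χ g‖ = (χ 1).re) ∧
      (∀ g, g ∈ K ↔ χ g = χ 1) ∧ (∀ z ∈ Z, ∀ g, χ (z * g) * χ 1 = χ z * χ g) ∧
      ∀ z ∈ Z, ∀ g, ⁅z, g⁆ ∈ K := by
  classical
  obtain ⟨m, ρ, hρ, rfl⟩ := id hχ
  have hmem : ∀ g, ‖ρ.character g‖ = (ρ.character 1).re ↔
      ∃ ω : ℂ, ρ g = ω • (LinearMap.id : (Fin m → ℂ) →ₗ[ℂ] (Fin m → ℂ)) := fun g => by
    rw [ρ.char_one, Complex.natCast_re]
    exact norm_character_eq_iff ρ g
  let Z : Subgroup G :=
    { carrier := {g | ‖ρ.character g‖ = (ρ.character 1).re}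
      one_mem' := (hmem 1).2 ⟨1, by rw [map_one, one_smul]; rfl⟩
      mul_mem' := fun {a b} ha hb => by
        obtain ⟨x, hx⟩ := (hmem a).1 ha
        obtain ⟨y, hy⟩ := (hmem b).1 hb
        exact (hmem _).2 ⟨x * y, by
          rw [map_mul, hx, hy, smul_mul_smul_comm, ← Module.End.one_eq_id, one_mul]⟩
      inv_mem' := fun {a} ha => by
        show ‖ρ.character a⁻¹‖ = _
        rw [character_inv, RCLike.norm_conj]
        exact ha }
  obtain ⟨K, hKn, hK, -⟩ := exists_kernel (IsIrrCharacter.isCharacter hχ)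
  have hscal : ∀ z ∈ Z, ∀ g, ρ z * ρ g = ρ g * ρ z := fun z hz g => by
    obtain ⟨x, hx⟩ := (hmem z).1 hz
    rw [hx, smul_mul_assoc, mul_smul_comm]
    rfl
  refine ⟨Z, K, ⟨fun a ha g => ?_⟩, hKn, fun g => Iff.rfl, hK, fun z hz g => ?_, fun z hz g => ?_⟩
  · show ‖ρ.character (g * a * g⁻¹)‖ = _
    rw [IsIrrCharacter.isClassFunction hχ a g]
    exact ha
  · obtain ⟨x, hx⟩ := (hmem z).1 hz
    have h1 : ρ (z * g) = x • ρ g := by
      rw [map_mul, hx, smul_mul_assoc]
      rfl
    simp only [Representation.character, h1, hx, map_smul, smul_eq_mul, map_one,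
      Module.End.one_eq_id]
    ring
  · refine (hK _).2 ?_
    show ρ.character _ = ρ.character 1
    simp only [Representation.character]
    rw [commutatorElement_def, show z * g * z⁻¹ * g⁻¹ = z * g * (g * z)⁻¹ by group, map_mul ρ,
      map_mul ρ z g, hscal z hz g, ← map_mul ρ g z, ← map_mul, mul_inv_cancel]

/-- A normal subgroup that is abelian modulo the kernel consists of scalars. -/
theorem scalar_of_comm (hχ : IsIrrCharacter G χ) (hp : IsPrim χ) (N : Subgroup G) [N.Normal]
    (hN : ∀ a ∈ N, ∀ b ∈ N, χ ⁅a, b⁆ = χ 1) {a : G} (ha : a ∈ N) : ‖χ a‖ = (χ 1).re := by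
  classical
  haveI := Fintype.ofFinite N
  obtain ⟨θ, e, hθ, -, he0, hin, he⟩ := exists_homogeneous hχ hp N
  have hθ1 : θ 1 = 1 := constituent_degree_one (IsIrrCharacter.isCharacter hχ) hθ
    (by rw [hin]; exact Nat.cast_ne_zero.2 he0) hN
  obtain ⟨μ, rfl⟩ := exists_hom_of_degree_one hθ hθ1
  have e1 : χ 1 = e := by
    have := he 1
    simpa using this
  have e2 := he ⟨a, ha⟩
  have hfin : IsOfFinOrder (⟨a, ha⟩ : N) := isOfFinOrder_of_finite _
  rw [e2, e1, norm_mul, Complex.norm_natCast, Complex.natCast_re,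
    Complex.norm_eq_one_of_pow_eq_one (n := orderOf (⟨a, ha⟩ : N)) (by
      rw [← Units.val_pow_eq_pow_val, ← map_pow, pow_orderOf_eq_one, map_one, Units.val_one])
      hfin.orderOf_pos.ne', mul_one]

/-- The restriction to a normal subgroup with nilpotent quotient is irreducible. -/
theorem res_irr_of_nilpotent_quotient (hχ : IsIrrCharacter G χ) (hp : IsPrim χ) (E : Subgroup G)
    [E.Normal] (hE : Group.IsNilpotent (G ⧸ E)) : IsIrrCharacter E (fun x : E => χ x) := by
  classical
  induction hn : E.index using Nat.strong_induction_on generalizing E with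
  | _ n ih =>
    subst hn
    by_cases htop : E = ⊤
    · subst htop
      exact isIrrCharacter_comp_mulEquiv hχ Subgroup.topEquiv
    haveI := hE
    haveI : Nontrivial (G ⧸ E) := by
      obtain ⟨x, -, hx⟩ := SetLike.exists_of_lt (Ne.lt_top htop)
      exact ⟨(x : G ⧸ E), 1, fun e => hx ((QuotientGroup.eq_one_iff x).1 e)⟩
    haveI := CfsgLib.Brauer.nontrivial_center_of_nilpotent (Q := G ⧸ E)
    obtain ⟨⟨b, hb⟩, hb1⟩ := exists_ne (1 : Subgroup.center (G ⧸ E))
    obtain ⟨a, rfl⟩ := QuotientGroup.mk_surjective b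
    set M : Subgroup G := (Subgroup.zpowers (a : G ⧸ E)).comap (QuotientGroup.mk' E)
    haveI : (Subgroup.zpowers (a : G ⧸ E)).Normal :=
      CfsgLib.Brauer.normal_of_le_center (Subgroup.zpowers_le.2 hb)
    haveI : M.Normal := Subgroup.Normal.comap inferInstance _
    have hEM : E ≤ M := fun x hx => by
      show (x : G ⧸ E) ∈ Subgroup.zpowers (a : G ⧸ E)
      rw [(QuotientGroup.eq_one_iff x).2 hx]
      exact one_mem _
    have hlt : M.index < E.index := by
      have haE : a ∉ E := fun h => hb1 (Subtype.ext ((QuotientGroup.eq_one_iff a).2 h))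
      refine lt_of_le_of_ne (Nat.le_of_dvd (Nat.pos_of_ne_zero Subgroup.index_ne_zero_of_finite)
        (Subgroup.index_dvd_of_le hEM)) fun h => haE ?_
      have h1 := Subgroup.relIndex_mul_index hEM
      rw [h] at h1
      have h2 : E.relIndex M = 1 :=
        Nat.eq_of_mul_eq_mul_right (Nat.pos_of_ne_zero Subgroup.index_ne_zero_of_finite)
          (h1.trans (one_mul _).symm)
      exact Subgroup.relIndex_eq_one.1 h2 (Subgroup.mem_zpowers (a : G ⧸ E))
    have hMnil : Group.IsNilpotent (G ⧸ M) :=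
      Group.nilpotent_of_surjective (QuotientGroup.map E M (MonoidHom.id G) hEM)
        (fun y => by
          obtain ⟨g, rfl⟩ := QuotientGroup.mk'_surjective M y
          exact ⟨(g : G ⧸ E), rfl⟩)
    have hM := ih _ hlt M hMnil rfl
    haveI := Fintype.ofFinite E
    haveI := Fintype.ofFinite M
    haveI := Fintype.ofFinite (E.subgroupOf M)
    obtain ⟨θ, e, hθ, hinv, he0, hin, he⟩ := exists_homogeneous hχ hp E
    let ε : E.subgroupOf M ≃* E := Subgroup.subgroupOfEquivOfLe hEM
    have hcyc : IsCyclic (M ⧸ E.subgroupOf M) := by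
      let f : M →* Subgroup.zpowers (a : G ⧸ E) :=
        ((QuotientGroup.mk' E).comp M.subtype).codRestrict _ fun m => m.2
      have hker : f.ker = E.subgroupOf M := by
        ext m
        rw [MonoidHom.mem_ker, Subgroup.mem_subgroupOf, ← QuotientGroup.eq_one_iff, Subtype.ext_iff]
        rfl
      refine isCyclic_of_injective
        ((QuotientGroup.kerLift f).comp (QuotientGroup.quotientMulEquivOfEq hker.symm).toMonoidHom) ?_
      exact (QuotientGroup.kerLift_injective f).comp (MulEquiv.injective _)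
    have hdeg := apply_one_eq_of_cyclic hcyc hM (θ := fun x => θ (ε x))
      (isIrrCharacter_comp_mulEquiv hθ ε)
      (fun m => funext fun x => by
        have h := congrFun (hinv (m : G)) (ε x)
        rw [CfsgLib.Clifford.conjChar_apply] at h ⊢
        rw [← h]
        congr 1)
      (by
        rw [show (fun n : E.subgroupOf M => (fun x : M => χ x) n) = fun n => (fun y : E => χ y) (ε n)
          from rfl, CfsgLib.Clifford.classInner_comp_mulEquiv ε (fun y : E => χ y) θ, hin]
        exact Nat.cast_ne_zero.2 he0)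
    have he1 : (e : ℂ) = 1 := by
      have h1 := he 1
      rw [map_one] at hdeg
      rw [OneMemClass.coe_one] at h1
      rw [show χ ((1 : M) : G) = χ 1 from rfl, h1] at hdeg
      exact (mul_eq_right₀ (apply_one_ne_zero_of_isIrr hθ)).1 hdeg
    convert hθ using 1
    funext x
    rw [he x, he1, one_mul]

end CfsgLib.PrimitiveChar
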