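/-
For a primitive character of a solvable group, some conjugacy class size has `p`-part at least the
`p`-part of the degree: the average over all elements already has.
-/
import Cfsg.Agent.Lib.PrimitiveChar.Basic
import Cfsg.Agent.Lib.PrimitiveChar.AverageFixed
import Cfsg.Agent.Lib.Brauer.Dual
import Cfsg.Agent.Lib.SolvableStructure.MinimalNormal
import Cfsg.Prelude.Def_Blocks

set_option autoImplicit false
set_option linter.unusedSectionVars false
set_option linter.style.haveILetI false

open scoped ComplexConjugate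
open Cfsg CfsgLib.CharTheory

namespace CfsgLib.PrimitiveChar

universe u

/-- Either the norm over the kernel is `1`, or the character vanishes outside and it is the index. -/
theorem norm_ker_eq_one_or_card {M S : Type*} [Group M] [Fintype M] [CommGroup S] [Finite S]
    (π : M →* S) (hπ : Function.Surjective π) {θ : M → ℂ} (hθ : IsIrrCharacter M θ) {c : ℕ}
    [DecidablePred fun m => π m = 1]
    (hc : ∑ m ∈ Finset.univ.filter (fun m => π m = 1), θ m * conj (θ m) =
      ((c * Nat.card π.ker : ℕ) : ℂ))
    (hU : Subgroup.closure (π '' {m | θ m ≠ 0}) = ⊥ ∨ Subgroup.closure (π '' {m | θ m ≠ 0}) = ⊤) :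
    c = 1 ∨ c = Nat.card S := by
  classical
  have hcard : Nat.card π.ker * Nat.card S = Nat.card M := by
    rw [← π.ker.card_mul_index, Subgroup.index_ker, MonoidHom.range_eq_top.2 hπ, Subgroup.card_top]
  have h1 : ∑ m : M, θ m * conj (θ m) = (Nat.card M : ℂ) := by
    have h := classInner_self_of_isIrr hθ
    rwa [classInner, inv_mul_eq_iff_eq_mul₀ (Nat.cast_ne_zero.2 Nat.card_pos.ne'), mul_one] at h
  rcases hU with hU | hU
  · right
    have h2 : ∀ m : M, π m ≠ 1 → θ m = 0 := fun m hm => by
      by_contra h0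
      have : π m ∈ Subgroup.closure (π '' {m | θ m ≠ 0}) := Subgroup.subset_closure ⟨m, h0, rfl⟩
      rw [hU, Subgroup.mem_bot] at this
      exact hm this
    rw [Finset.sum_filter_of_ne (fun m _ hm => by_contra fun h => hm (by rw [h2 m h, zero_mul])), h1,
      Nat.cast_inj, ← hcard, mul_comm c] at hc
    exact (Nat.eq_of_mul_eq_mul_left Nat.card_pos hc).symm
  · left
    -- the twists of `θ` are different from `θ`
    have horth : ∀ l : S →* ℂˣ, l ≠ 1 → ∑ m : M, (l (π m) : ℂ) * (θ m * conj (θ m)) = 0 := by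
      intro l hl
      have hnorm : ∀ m, ‖((l (π m) : ℂˣ) : ℂ)‖ = 1 := fun m =>
        Complex.norm_eq_one_of_pow_eq_one (n := Nat.card S) (by
          rw [← Units.val_pow_eq_pow_val, ← map_pow, pow_card_eq_one', map_one, Units.val_one])
          Nat.card_pos.ne'
      have hirr : IsIrrCharacter M ((fun m => ((l.comp π) m : ℂ)) * θ) :=
        isIrrCharacter_mul_of_norm hθ (IsIrrCharacter.isCharacter (isIrrCharacter_linear (l.comp π)))
          hnorm
      have hne : (fun m => ((l.comp π) m : ℂ)) * θ ≠ θ := by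
        intro h
        refine hl (MonoidHom.ext fun s => ?_)
        have hle : Subgroup.closure (π '' {m | θ m ≠ 0}) ≤ l.ker := by
          rw [Subgroup.closure_le]
          rintro _ ⟨m, hm, rfl⟩
          have h3 := congrFun h m
          simp only [Pi.mul_apply, MonoidHom.comp_apply] at h3
          exact Units.val_eq_one.1 ((mul_eq_right₀ hm).1 h3)
        exact hle (hU ▸ Subgroup.mem_top s)
      have h := classInner_eq_zero_of_ne hirr hθ hne
      rw [classInner, mul_eq_zero, inv_eq_zero, Nat.cast_eq_zero,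
        or_iff_right Nat.card_pos.ne'] at h
      rw [← h]
      exact Finset.sum_congr rfl fun m _ => by simp [mul_assoc]
    have hA : ∑ l : S →* ℂˣ, ∑ m : M, (l (π m) : ℂ) * (θ m * conj (θ m)) = (Nat.card M : ℂ) := by
      rw [Finset.sum_eq_single 1 (fun l _ hl => horth l hl) (fun h => absurd (Finset.mem_univ _) h),
        ← h1]
      exact Finset.sum_congr rfl fun m _ => by simp
    have hB : ∑ l : S →* ℂˣ, ∑ m : M, (l (π m) : ℂ) * (θ m * conj (θ m)) =
        (Nat.card S : ℂ) * ((c * Nat.card π.ker : ℕ) : ℂ) := by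
      rw [Finset.sum_comm, ← hc, Finset.mul_sum, Finset.sum_filter]
      refine Finset.sum_congr rfl fun m _ => ?_
      rw [← Finset.sum_mul, CfsgLib.Brauer.sum_homUnits_apply]
      split_ifs <;> simp
    rw [hA, ← Nat.cast_mul, Nat.cast_inj, ← hcard] at hB
    have : c * (Nat.card π.ker * Nat.card S) = 1 * (Nat.card π.ker * Nat.card S) := by
      rw [one_mul]; linarith [hB]
    exact Nat.eq_of_mul_eq_mul_right (Nat.mul_pos Nat.card_pos Nat.card_pos) this

/-- Indices of a subgroup in a normal subgroup and of a subgroup containing both. -/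
theorem relIndex_mul_index_dvd {G : Type*} [Group G] [Finite G] (C E L : Subgroup G) [E.Normal]
    (hC : C ≤ L) (hE : E ≤ L) : C.relIndex E * L.index ∣ C.index := by
  have h1 : (E ⊓ C).relIndex E * E.relIndex (E ⊔ C) = (E ⊓ C).relIndex C * C.relIndex (E ⊔ C) := by
    rw [Subgroup.relIndex_mul_relIndex _ _ _ inf_le_left le_sup_left,
      Subgroup.relIndex_mul_relIndex _ _ _ inf_le_right le_sup_right]
  rw [Subgroup.relIndex_sup_left, Subgroup.inf_relIndex_right E C,
    show (E ⊓ C).relIndex E = C.relIndex E by rw [inf_comm, Subgroup.inf_relIndex_right],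
    mul_comm] at h1
  have h2 : C.relIndex E = C.relIndex (E ⊔ C) :=
    Nat.eq_of_mul_eq_mul_left
      (Nat.pos_of_ne_zero (fun h0 => Subgroup.index_ne_zero_of_finite (H := E.subgroupOf C) h0)) h1
  rw [h2, ← Subgroup.relIndex_mul_index (le_sup_right : C ≤ E ⊔ C)]
  exact Nat.mul_dvd_mul_left _ (Subgroup.index_dvd_of_le (sup_le hE hC))

/-- A solvable group of automorphisms, irreducible on a `p`-group that is not of prime order, fixes at
most half on average. -/
theorem sum_fix_le {H V : Type*} [Group H] [Fintype H] [Group.IsSolvable H] [CommGroup V] [Finite V]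
    {p j : ℕ} [Fact p.Prime] (hV : Nat.card V = p ^ (2 * j)) (hj : j ≠ 0) (hexp : ∀ v : V, v ^ p = 1)
    (ψ : H →* MulAut V)
    (hirr : ∀ U : Subgroup V, (∀ h, ∀ v ∈ U, ψ h v ∈ U) → U = ⊥ ∨ U = ⊤) :
    j * Fintype.card H ≤ ∑ h : H, (fix ψ h).index.factorization p := by
  classical
  have hp : p.Prime := Fact.out
  set R := ψ.range
  letI := Fintype.ofFinite R
  haveI : Group.IsSolvable R := Group.isSolvable_of_surjective ψ.rangeRestrict_surjective
  -- the image is not trivial
  have hRne : (⊤ : Subgroup R) ≠ ⊥ := by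
    intro h
    have htriv : ∀ x : H, ∀ v, ψ x v = v := fun x v => by
      have : (⟨ψ x, x, rfl⟩ : R) ∈ (⊥ : Subgroup R) := h ▸ Subgroup.mem_top _
      rw [show ψ x = 1 from congrArg Subtype.val (Subgroup.mem_bot.1 this)]
      rfl
    haveI : Nontrivial V := by
      rw [← Finite.one_lt_card_iff_nontrivial, hV]
      exact Nat.one_lt_pow (by omega) hp.one_lt
    obtain ⟨v, hv⟩ := exists_ne (1 : V)
    rcases hirr (Subgroup.zpowers v) (fun x w hw => by rwa [htriv x w]) with h1 | h1
    · exact hv (Subgroup.zpowers_eq_bot.1 h1)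
    · have h2 : Nat.card (Subgroup.zpowers v) = p ^ (2 * j) := by rw [h1, Subgroup.card_top, hV]
      rw [Nat.card_zpowers, orderOf_eq_prime (hexp v) hv] at h2
      have := Nat.pow_right_injective hp.two_le ((pow_one p).trans h2)
      omega
  obtain ⟨A, -, hAn, hAne, hAmin⟩ := CfsgLib.SolvableStructure.exists_minimal_normal
    (inferInstance : (⊤ : Subgroup R).Normal) hRne
  haveI := hAn
  obtain ⟨r, k, hr, -, hAk, hAe, hAc⟩ :=
    CfsgLib.SolvableStructure.minimal_normal_prime hAne hAmin
  haveI := Fact.mk hr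
  let φ : R →* MulAut V := R.subtype
  have hfix : ∀ v : V, (∀ a ∈ A, φ a v = v) → v = 1 := by
    have hinv : ∀ x, ∀ v ∈ fixOf φ A, ψ x v ∈ fixOf φ A := by
      intro x v hv a ha
      have h1 := hv _ (hAn.conj_mem a ha (⟨ψ x, x, rfl⟩ : R)⁻¹)
      rw [inv_inv, map_mul, map_mul, map_inv, MulAut.mul_apply, MulAut.mul_apply] at h1
      change (ψ x)⁻¹ (φ a (ψ x v)) = v at h1
      have h2 := congrArg (ψ x) h1
      rwa [MulAut.apply_inv_self] at h2
    rcases hirr _ hinv with h | h
    · exact fun v hv => Subgroup.mem_bot.1 (h.le hv)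
    · exfalso
      obtain ⟨a, ha, ha1⟩ := (Subgroup.bot_or_exists_ne_one A).resolve_left hAne
      refine ha1 (Subtype.ext (MulEquiv.ext fun v => ?_))
      have : v ∈ fixOf φ A := h ▸ Subgroup.mem_top v
      exact this a ha
  have hrp : r ≠ p := by
    rintro rfl
    letI : MulAction A V := MulAction.compHom V (φ.comp A.subtype)
    have hA : IsPGroup r A := IsPGroup.of_card hAk
    obtain ⟨v, hv, hv1⟩ := hA.exists_fixed_point_of_prime_dvd_card_of_fixed_point V
      (hV ▸ dvd_pow_self r (by omega)) (a := (1 : V))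
      (fun a => map_one (φ (a : R)))
    exact hv1 (hfix v fun a ha => hv ⟨a, ha⟩).symm
  have hbound := sq_prod_fix_le (φ := φ) (fun g a ha => hAn.conj_mem a ha g)
    (fun a ha b hb => CfsgLib.SolvableStructure.commute_of_isMulCommutative (h := hAc) ha hb) hAe
    (hV ▸ ((Nat.coprime_primes hr hp).2 hrp).pow_right _) hfix
  -- pull back to `H`
  have hfib : ∀ y : R, (Finset.univ.filter fun x : H => ψ.rangeRestrict x = y).card =
      Nat.card ψ.ker := by
    intro y
    obtain ⟨x0, rfl⟩ := ψ.rangeRestrict_surjective y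
    rw [Nat.card_eq_fintype_card, ← Fintype.card_coe]
    refine Fintype.card_congr
      { toFun := fun x => ⟨x0⁻¹ * x, by
          rw [MonoidHom.mem_ker, map_mul, map_inv, inv_mul_eq_one]
          exact (congrArg Subtype.val (Finset.mem_filter.1 x.2).2).symm⟩
        invFun := fun k => ⟨x0 * k, Finset.mem_filter.2 ⟨Finset.mem_univ _, Subtype.ext (by
          show ψ (x0 * k) = ψ x0
          rw [map_mul, MonoidHom.mem_ker.1 k.2, mul_one])⟩⟩
        left_inv := fun x => Subtype.ext (mul_inv_cancel_left _ _)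
        right_inv := fun k => Subtype.ext (inv_mul_cancel_left _ _) }
  have hcardH : Fintype.card R * Nat.card ψ.ker = Fintype.card H := by
    rw [← Nat.card_eq_fintype_card, ← Nat.card_eq_fintype_card, ← ψ.ker.card_mul_index,
      Subgroup.index_ker, mul_comm]
  have hprod : (∏ x : H, Nat.card (fix ψ x)) ^ 2 ≤ Nat.card V ^ Fintype.card H := by
    have h1 : ∏ x : H, Nat.card (fix ψ x) = (∏ y : R, Nat.card (fix φ y)) ^ Nat.card ψ.ker := by
      rw [← Finset.prod_pow, ← Finset.prod_fiberwise Finset.univ ψ.rangeRestrict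
        (fun x => Nat.card (fix ψ x))]
      refine Finset.prod_congr rfl fun y _ => ?_
      rw [Finset.prod_congr rfl (g := fun _ => Nat.card (fix φ y)) fun x hx => ?_, Finset.prod_const,
        hfib]
      rw [← (Finset.mem_filter.1 hx).2]
      rfl
    rw [h1, ← pow_mul, mul_comm, pow_mul, ← hcardH, pow_mul]
    exact Nat.pow_le_pow_left hbound _
  have hpg : IsPGroup p V := fun v => ⟨1, by simpa using hexp v⟩
  have hk : ∀ x : H, Nat.card (fix ψ x) = p ^ (2 * j - (fix ψ x).index.factorization p) ∧
      (fix ψ x).index.factorization p ≤ 2 * j := by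
    intro x
    obtain ⟨a, ha⟩ := IsPGroup.iff_card.1 (hpg.to_subgroup (fix ψ x))
    have h1 := congrArg (fun n => n.factorization p) ((fix ψ x).card_mul_index.trans hV)
    simp only [ha] at h1
    rw [Nat.factorization_mul (pow_ne_zero _ hp.ne_zero) Subgroup.index_ne_zero_of_finite,
      Finsupp.add_apply, hp.factorization_pow, hp.factorization_pow, Finsupp.single_eq_same,
      Finsupp.single_eq_same] at h1
    exact ⟨by rw [ha]; congr 1; omega, by omega⟩
  rw [Finset.prod_congr rfl fun x _ => (hk x).1, Finset.prod_pow_eq_pow_sum, hV, ← pow_mul,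
    ← pow_mul] at hprod
  have h2 := (Nat.pow_le_pow_iff_right hp.one_lt).1 hprod
  have h3 : ∑ x : H, (2 * j - (fix ψ x).index.factorization p) +
      ∑ x : H, (fix ψ x).index.factorization p = Fintype.card H * (2 * j) := by
    rw [← Finset.sum_add_distrib, Finset.sum_congr rfl fun x _ => Nat.sub_add_cancel (hk x).2,
      Finset.sum_const, Finset.card_univ, smul_eq_mul]
  nlinarith

variable {G : Type u} [Group G] [Fintype G] [Group.IsSolvable G] {χ : G → ℂ}

/-- On average the class sizes already carry the `p`-part of the constituent degree. -/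
theorem degree_le_sum_relIndex (hχ : IsIrrCharacter G χ) (hp : IsPrim χ) (p : ℕ) [Fact p.Prime] :
    ∀ (N : Subgroup G), N.Normal → ∀ [Fintype N] (θ : N → ℂ) (e d : ℕ),
      IsIrrCharacter N θ → e ≠ 0 → (∀ n : N, χ n = e * θ n) → θ 1 = d →
      Fintype.card G * d.factorization p ≤
        ∑ g : G, ((Subgroup.centralizer ({g} : Set G)).relIndex N).factorization p := by
  classical
  intro N
  induction hn : Nat.card N using Nat.strong_induction_on generalizing N with
  | _ n ih =>
  subst hn
  intro hN _ θ e d hθ he hχθ hd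
  by_cases hbot : N = ⊥
  · have h1 : θ 1 = 1 := apply_one_eq_one_of_comm (A := N) (fun a b => Subtype.ext (by
      simp [Subgroup.mem_bot.1 (hbot.le a.2), Subgroup.mem_bot.1 (hbot.le b.2)])) hθ
    rw [h1, ← Nat.cast_one, Nat.cast_inj] at hd
    subst hd
    simp
  obtain ⟨N0, ⟨hN0n, hN0lt⟩, hmax⟩ := Set.Finite.exists_maximal
    (s := {K : Subgroup G | K.Normal ∧ K < N}) (Set.toFinite _)
    ⟨⊥, inferInstance, bot_lt_iff_ne_bot.2 hbot⟩
  haveI := hN0n
  haveI := hN
  letI := Fintype.ofFinite N0
  set V : Subgroup (G ⧸ N0) := N.map (QuotientGroup.mk' N0) with hVdef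
  haveI : V.Normal := Subgroup.Normal.map hN _ (QuotientGroup.mk'_surjective N0)
  have hcomap : V.comap (QuotientGroup.mk' N0) = N := by
    rw [hVdef, Subgroup.comap_map_eq, QuotientGroup.ker_mk', sup_eq_left.2 hN0lt.le]
  have hVne : V ≠ ⊥ := fun h => hN0lt.ne (by
    rw [← hcomap, h, MonoidHom.comap_bot, QuotientGroup.ker_mk'])
  have hVmin : ∀ K : Subgroup (G ⧸ N0), K.Normal → K ≤ V → K = ⊥ ∨ K = V := by
    intro K hK hKV
    have h1 : K.comap (QuotientGroup.mk' N0) ≤ N := hcomap ▸ Subgroup.comap_mono hKV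
    rcases eq_or_lt_of_le h1 with h | h
    · right
      rw [hVdef, ← h, Subgroup.map_comap_eq_self_of_surjective (QuotientGroup.mk'_surjective N0)]
    · left
      have hle : N0 ≤ K.comap (QuotientGroup.mk' N0) := fun x hx => by
        show (x : G ⧸ N0) ∈ K
        rw [(QuotientGroup.eq_one_iff x).2 hx]
        exact one_mem K
      have h2 := hmax ⟨Subgroup.Normal.comap hK _, h⟩ hle
      rw [← Subgroup.map_comap_eq_self_of_surjective (QuotientGroup.mk'_surjective N0) K,
        le_antisymm h2 hle, QuotientGroup.map_mk'_self]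
  haveI : Group.IsSolvable (G ⧸ N0) :=
    Group.isSolvable_of_surjective (QuotientGroup.mk'_surjective N0)
  obtain ⟨q, k, hq, hk0, hVk, hVe, hVc⟩ :=
    CfsgLib.SolvableStructure.minimal_normal_prime hVne hVmin
  haveI := Fact.mk hq
  let : CommGroup V :=
    { (inferInstance : Group V) with mul_comm := fun a b => hVc.is_comm.comm a b }
  let π : N →* V := ((QuotientGroup.mk' N0).comp N.subtype).codRestrict V fun x => ⟨x, x.2, rfl⟩
  have hπ : Function.Surjective π := fun v => by
    obtain ⟨x, hx, hxv⟩ := v.2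
    exact ⟨⟨x, hx⟩, Subtype.ext hxv⟩
  have hker : ∀ m : N, π m = 1 ↔ (m : G) ∈ N0 := fun m => by
    rw [Subtype.ext_iff]
    exact QuotientGroup.eq_one_iff (m : G)
  let ι : N0 →* N := Subgroup.inclusion hN0lt.le
  -- the constituent below
  obtain ⟨θ0, e0, hθ0, -, he0, -, hχ0⟩ := exists_homogeneous hχ hp N0
  obtain ⟨f, hf⟩ := IsCharacter.exists_classInner_eq_nat
    (CfsgLib.Coherence.isCharacter_comp (IsIrrCharacter.isCharacter hθ) ι) ⟨θ0, hθ0⟩
  have hf' : classInner (fun n => θ (ι n)) θ0 = (f : ℂ) := hf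
  have hfval : ∀ x : N0, θ (ι x) = f * θ0 x := by
    have h1 : ∀ x : N0, θ (ι x) = ((e0 : ℂ) / e) * θ0 x := fun x => by
      rw [div_mul_eq_mul_div, eq_div_iff (Nat.cast_ne_zero.2 he), mul_comm (θ (ι x))]
      exact ((hχθ (ι x)).symm.trans (hχ0 x))
    rw [show (fun n => θ (ι n)) = ((e0 : ℂ) / e) • θ0 from funext h1, classInner_smul_left,
      classInner_self_of_isIrr hθ0, mul_one] at hf'
    intro x
    rw [h1, hf']
  obtain ⟨d0, -, hd0⟩ := exists_degree_of_isIrr hθ0
  have hdd : d = f * d0 := by
    have h := hfval 1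
    rw [map_one, hd, hd0] at h
    exact_mod_cast h
  have hdpos : d ≠ 0 := fun h => apply_one_ne_zero_of_isIrr hθ (by rw [hd, h, Nat.cast_zero])
  have hf0 : f ≠ 0 := fun h => hdpos (by rw [hdd, h, zero_mul])
  have hd00 : d0 ≠ 0 := fun h => hdpos (by rw [hdd, h, mul_zero])
  -- the dichotomy
  have hdic : f * f = 1 ∨ f * f = Nat.card V := by
    refine norm_ker_eq_one_or_card π hπ hθ ?_ ?_
    · have hN0 : ∑ x : N0, θ0 x * conj (θ0 x) = (Nat.card N0 : ℂ) := by
        have h := classInner_self_of_isIrr hθ0
        rwa [classInner, inv_mul_eq_iff_eq_mul₀ (Nat.cast_ne_zero.2 Nat.card_pos.ne'), mul_one] at h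
      have hk' : Nat.card π.ker = Nat.card N0 := Nat.card_congr
        { toFun := fun m => ⟨m.1.1, (hker m.1).1 m.2⟩
          invFun := fun x => ⟨ι x, (hker _).2 x.2⟩
          left_inv := fun m => rfl
          right_inv := fun x => rfl }
      rw [hk', Nat.cast_mul, ← hN0, Finset.mul_sum]
      refine Finset.sum_bij' (fun m hm => ⟨m.1, (hker m).1 (Finset.mem_filter.1 hm).2⟩)
        (fun x _ => ι x) (fun _ _ => Finset.mem_univ _)
        (fun x _ => Finset.mem_filter.2 ⟨Finset.mem_univ _, (hker _).2 x.2⟩)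
        (fun _ _ => rfl) (fun _ _ => rfl) fun m hm => ?_
      rw [show θ m = θ (ι ⟨m.1, (hker m).1 (Finset.mem_filter.1 hm).2⟩) from rfl, hfval, map_mul,
        Complex.conj_natCast]
      push_cast
      ring
    · set U := Subgroup.closure (π '' {m | θ m ≠ 0})
      have hUn : (U.map V.subtype).Normal := ⟨by
        rintro _ ⟨u, hu, rfl⟩ y
        obtain ⟨g, rfl⟩ := QuotientGroup.mk'_surjective N0 y
        refine ⟨MulAut.conjNormal (QuotientGroup.mk' N0 g) u, ?_, MulAut.conjNormal_apply _ _⟩
        have hle : U ≤ U.comap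
            (MulAut.conjNormal (QuotientGroup.mk' N0 g) : MulAut V).toMonoidHom := by
          rw [Subgroup.closure_le]
          rintro _ ⟨m, hm, rfl⟩
          refine Subgroup.subset_closure ⟨⟨g * m * g⁻¹, hN.conj_mem _ m.2 g⟩, ?_, Subtype.ext ?_⟩
          · intro h0
            refine hm ?_
            have h1 := IsIrrCharacter.isClassFunction hχ (m : G) g
            rw [hχθ ⟨g * m * g⁻¹, hN.conj_mem _ m.2 g⟩ |>.trans (by rw [h0, mul_zero]),
              hχθ m] at h1
            exact (mul_eq_zero.1 h1.symm).resolve_left (Nat.cast_ne_zero.2 he)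
          · rw [MulEquiv.coe_toMonoidHom, MulAut.conjNormal_apply]
            rfl
        exact hle hu⟩
      rcases hVmin _ hUn (Subgroup.map_subtype_le U) with h | h
      · exact Or.inl ((Subgroup.map_eq_bot_iff_of_injective _ V.subtype_injective).1 h)
      · exact Or.inr (Subgroup.map_injective V.subtype_injective (by
          rw [h, ← MonoidHom.range_eq_map, Subgroup.range_subtype]))
  -- the index of the centralizer
  have hIH := ih _ (lt_of_le_of_ne (Subgroup.card_le_of_le hN0lt.le) fun h =>
    hN0lt.ne (Subgroup.eq_of_le_of_card_ge hN0lt.le h.ge)) N0 rfl hN0n θ0 e0 d0 hθ0 he0 hχ0 hd0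
  let ψ : G →* MulAut V := MulAut.conjNormal.comp (QuotientGroup.mk' N0)
  have hdvd : ∀ g : G, (Subgroup.centralizer ({g} : Set G)).relIndex N0 * (fix ψ g).index ∣
      (Subgroup.centralizer ({g} : Set G)).relIndex N := by
    intro g
    rw [← Subgroup.relIndex_subgroupOf hN0lt.le, ← Subgroup.index_comap_of_surjective (fix ψ g) hπ]
    haveI : (N0.subgroupOf N).Normal := inferInstance
    refine relIndex_mul_index_dvd _ _ _ (fun x hx => ?_) fun x hx => ?_
    · show MulAut.conjNormal (QuotientGroup.mk' N0 g) (π x) = π x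
      rw [Subtype.ext_iff, MulAut.conjNormal_apply, mul_inv_eq_iff_eq_mul]
      exact congrArg (QuotientGroup.mk' N0) (show g * (x : G) = (x : G) * g from
        Subgroup.mem_centralizer_iff.1 (Subgroup.mem_subgroupOf.1 hx) g rfl)
    · show MulAut.conjNormal (QuotientGroup.mk' N0 g) (π x) = π x
      rw [(hker x).2 hx, map_one]
  have hne0 : ∀ g : G, ∀ K : Subgroup G, (Subgroup.centralizer ({g} : Set G)).relIndex K ≠ 0 :=
    fun g K h0 => Subgroup.index_ne_zero_of_finite
      (H := (Subgroup.centralizer ({g} : Set G)).subgroupOf K) h0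
  have hstep : ∀ g : G, ((Subgroup.centralizer ({g} : Set G)).relIndex N0).factorization p +
      (fix ψ g).index.factorization p ≤
        ((Subgroup.centralizer ({g} : Set G)).relIndex N).factorization p := fun g => by
    rw [← Finsupp.add_apply, ← Nat.factorization_mul (hne0 g N0) Subgroup.index_ne_zero_of_finite]
    exact (Nat.factorization_le_iff_dvd (mul_ne_zero (hne0 g N0) Subgroup.index_ne_zero_of_finite)
      (hne0 g N)).2 (hdvd g) p
  rw [hdd, Nat.factorization_mul hf0 hd00, Finsupp.add_apply, mul_add]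
  by_cases hfp : f.factorization p = 0
  · rw [hfp, mul_zero, zero_add]
    exact hIH.trans (Finset.sum_le_sum fun g _ => le_trans (Nat.le_add_right _ _) (hstep g))
  have hfq : f * f = q ^ k := by
    rcases hdic with h | h
    · rw [Nat.eq_one_of_mul_eq_one_right h] at hfp
      simp at hfp
    · rw [h, hVk]
  have hpq : p = q := by
    have h1 : p ∣ f := Nat.dvd_of_factorization_pos hfp
    exact (Nat.prime_dvd_prime_iff_eq Fact.out hq).1
      ((Fact.out : p.Prime).dvd_of_dvd_pow (hfq ▸ h1.mul_right f))
  subst hpq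
  have hj : k = 2 * f.factorization p := by
    have h := congrArg (fun n => n.factorization p) hfq
    simp only [Nat.factorization_mul hf0 hf0, Finsupp.add_apply, hq.factorization_pow,
      Finsupp.single_eq_same] at h
    omega
  have hsum := sum_fix_le (p := p) (j := f.factorization p) (hj ▸ hVk) hfp
    (fun v => Subtype.ext (by simpa using hVe v v.2)) ψ (fun U hU => by
      have hUn : (U.map V.subtype).Normal := ⟨by
        rintro _ ⟨u, hu, rfl⟩ y
        obtain ⟨g, rfl⟩ := QuotientGroup.mk'_surjective N0 y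
        exact ⟨ψ g u, hU g u hu, MulAut.conjNormal_apply _ _⟩⟩
      rcases hVmin _ hUn (Subgroup.map_subtype_le U) with h | h
      · exact Or.inl ((Subgroup.map_eq_bot_iff_of_injective _ V.subtype_injective).1 h)
      · exact Or.inr (Subgroup.map_injective V.subtype_injective (by
          rw [h, ← MonoidHom.range_eq_map, Subgroup.range_subtype])))
  calc Fintype.card G * f.factorization p + Fintype.card G * d0.factorization p
      ≤ ∑ g : G, (fix ψ g).index.factorization p +
          ∑ g : G, ((Subgroup.centralizer ({g} : Set G)).relIndex N0).factorization p :=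
        add_le_add (by rwa [mul_comm]) hIH
    _ ≤ _ := by
        rw [← Finset.sum_add_distrib]
        exact Finset.sum_le_sum fun g _ => (add_comm _ _).trans_le (hstep g)

/-- For a primitive character of a solvable group some class size has at least the `p`-part of the
degree. -/
theorem exists_class_p_part (hχ : IsIrrCharacter G χ) (hp : IsPrim χ) (p : ℕ) [Fact p.Prime] :
    ∃ g : G, (charDegree χ).factorization p ≤
      (Subgroup.centralizer ({g} : Set G)).index.factorization p := by
  classical
  obtain ⟨d, -, hd⟩ := exists_degree_of_isIrr hχ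
  rw [show charDegree χ = d by rw [charDegree, hd, Complex.natCast_re, Nat.floor_natCast]]
  have h := degree_le_sum_relIndex hχ hp p ⊤ inferInstance (fun x => χ (Subgroup.topEquiv x)) 1 d
    (isIrrCharacter_comp_mulEquiv hχ Subgroup.topEquiv) one_ne_zero
    (fun n => by rw [Nat.cast_one, one_mul]; rfl) (by rw [map_one]; exact hd)
  simp only [Subgroup.relIndex_top_right] at h
  obtain ⟨g, -, hg⟩ := Finset.exists_le_of_sum_le (s := (Finset.univ : Finset G))
    (f := fun _ => d.factorization p) Finset.univ_nonempty (by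
      simpa [Finset.sum_const, Finset.card_univ] using h)
  exact ⟨g, hg⟩

end CfsgLib.PrimitiveChar
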