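/-
The degree of a primitive character of a metanilpotent group with two prime divisors divides a
conjugacy class size.
-/
import Cfsg.Agent.Lib.PrimitiveChar.Basic
import Cfsg.Agent.Lib.PrimitiveChar.SmallFixed
import Cfsg.Agent.Lib.Cores.Fitting
import Cfsg.Agent.Lib.PSolvable.FrattiniFacts
import Cfsg.Agent.Lib.FixedPointFree.Basic
import Cfsg.Prelude.Def_Blocks

set_option autoImplicit false
set_option linter.unusedSectionVars false
set_option linter.style.haveILetI false

open scoped ComplexConjugate commutatorElement IsMulCommutative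
open Cfsg CfsgLib.CharTheory

namespace CfsgLib.PrimitiveChar

universe u

variable {G : Type u} [Group G]

/-- The index in a normal subgroup of a centralizer divides the full index. -/
theorem relIndex_dvd_index_of_normal_right (C E : Subgroup G) [E.Normal] [Finite G] :
    C.relIndex E ∣ C.index := by
  have h1 : (E ⊓ C).relIndex E * E.relIndex (E ⊔ C) = (E ⊓ C).relIndex C * C.relIndex (E ⊔ C) := by
    rw [Subgroup.relIndex_mul_relIndex _ _ _ inf_le_left le_sup_left,
      Subgroup.relIndex_mul_relIndex _ _ _ inf_le_right le_sup_right]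
  rw [Subgroup.relIndex_sup_left, Subgroup.inf_relIndex_right E C,
    show (E ⊓ C).relIndex E = C.relIndex E by rw [inf_comm, Subgroup.inf_relIndex_right],
    mul_comm] at h1
  have h2 : C.relIndex E = C.relIndex (E ⊔ C) :=
    Nat.eq_of_mul_eq_mul_left (Nat.pos_of_ne_zero (fun h0 => Subgroup.index_ne_zero_of_finite (H := E.subgroupOf C) h0)) h1
  rw [h2]
  exact ⟨_, (Subgroup.relIndex_mul_index le_sup_right).symm⟩

theorem degree_dvd_class [Fintype G] (h2 : (Nat.card G).primeFactors.card = 2)
    [hF : (fittingSubgroup G).Normal] (hmeta : Group.IsNilpotent (G ⧸ fittingSubgroup G))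
    {χ : G → ℂ} (hχ : IsIrrCharacter G χ) (hp : IsPrim χ) :
    ∃ g : G, charDegree χ ∣ (Subgroup.centralizer ({g} : Set G)).index := by
  classical
  obtain ⟨Z, K, hZn, hKn, hZ, hK, hmul, hZK⟩ := exists_scalar_subgroup hχ
  obtain ⟨d, hd0, hd⟩ := exists_degree_of_isIrr hχ
  have hdeg : charDegree χ = d := by rw [charDegree, hd, Complex.natCast_re, Nat.floor_natCast]
  have hscal : ∀ N : Subgroup G, N.Normal → (∀ a ∈ N, ∀ b ∈ N, ⁅a, b⁆ ∈ K) → N ≤ Z :=
    fun N hN h a ha => (hZ a).2 (scalar_of_comm hχ hp N (fun a ha b hb => (hK _).1 (h a ha b hb)) ha)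
  set F := fittingSubgroup G with hFdef
  -- commutators of the Fitting subgroup are scalars
  have hF1 : F.lowerCentralSeries 1 ≤ Z := by
    obtain ⟨n, hn⟩ := (Subgroup.isNilpotent_iff_lowerCentralSeries F).1
      CfsgLib.Cores.isNilpotent_fittingSubgroup
    suffices ∀ j, F.lowerCentralSeries (1 + j) ≤ Z → F.lowerCentralSeries 1 ≤ Z from
      this n (by
        refine le_trans ?_ (hn.le.trans bot_le)
        exact Subgroup.lowerCentralSeries_antitone F (Nat.le_add_left n 1))
    intro j
    induction j with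
    | zero => exact fun h => h
    | succ j ih =>
      intro h
      refine ih ?_
      set L := F.lowerCentralSeries (1 + j) with hL
      have hLn : L.Normal := ⟨fun a ha g => by
        have e : F.map (MulAut.conj g).toMonoidHom = F := by
          refine Subgroup.eq_of_le_of_card_ge ?_
            (Nat.card_congr (F.equivMapOfInjective _ (MulAut.conj g).injective).toEquiv).le
          rintro _ ⟨y, hy, rfl⟩
          exact hF.conj_mem y hy g
        have h1 : L.map (MulAut.conj g).toMonoidHom = L := by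
          rw [hL, Subgroup.map_lowerCentralSeries, e]
        exact h1.le ⟨a, ha, rfl⟩⟩
      refine hscal L hLn fun a ha b hb => ?_
      -- three subgroups modulo the kernel
      have hZc : ∀ S T : Subgroup G, S ≤ Z →
          ⁅S.map (QuotientGroup.mk' K), T.map (QuotientGroup.mk' K)⁆ = ⊥ := fun S T hS => by
        rw [← Subgroup.map_commutator, Subgroup.map_eq_bot_iff, QuotientGroup.ker_mk',
          Subgroup.commutator_le]
        exact fun z hz g _ => hZK z (hS hz) g
      have hLF : ⁅L, F⁆ ≤ Z := by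
        rw [hL, ← Subgroup.lowerCentralSeries_succ]
        exact h
      set A := F.lowerCentralSeries j with hA
      have hAF : A ≤ F := Subgroup.lowerCentralSeries_antitone F (Nat.zero_le j)
      have e : L = ⁅A, F⁆ := by rw [hL, hA, add_comm, Subgroup.lowerCentralSeries_succ]
      have h3 := Subgroup.commutator_commutator_eq_bot_of_rotate
        (H₁ := A.map (QuotientGroup.mk' K)) (H₂ := F.map (QuotientGroup.mk' K))
        (H₃ := L.map (QuotientGroup.mk' K))
        (by rw [← Subgroup.map_commutator, Subgroup.commutator_comm F L]; exact hZc _ _ hLF)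
        (by rw [← Subgroup.map_commutator]
            exact hZc _ _ ((Subgroup.commutator_mono le_rfl hAF).trans hLF))
      rw [← Subgroup.map_commutator, ← e, ← Subgroup.map_commutator, Subgroup.map_eq_bot_iff,
        QuotientGroup.ker_mk'] at h3
      exact h3 (Subgroup.commutator_mem_commutator ha hb)
  have hFF : ∀ a ∈ F, ∀ b ∈ F, ⁅a, b⁆ ∈ Z := fun a ha b hb => hF1 (by
    rw [show (1 : ℕ) = 0 + 1 from rfl, Subgroup.lowerCentralSeries_succ,
      Subgroup.lowerCentralSeries_zero]
    exact Subgroup.commutator_mem_commutator ha hb)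
  -- the subgroup `E = F Z` and the abelian group `V = E / Z`
  set E := F ⊔ Z with hE
  haveI : E.Normal := Subgroup.sup_normal _ _
  set V : Subgroup (G ⧸ Z) := E.map (QuotientGroup.mk' Z) with hV
  haveI : V.Normal := Subgroup.Normal.map inferInstance _ (QuotientGroup.mk'_surjective Z)
  have hVF : V = F.map (QuotientGroup.mk' Z) := by
    rw [hV, hE, Subgroup.map_sup, QuotientGroup.map_mk'_self, sup_bot_eq]
  have hVc : IsMulCommutative V := ⟨⟨fun a b => Subtype.ext (by
    obtain ⟨x, hx, hxa⟩ := hVF.le a.2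
    obtain ⟨y, hy, hyb⟩ := hVF.le b.2
    show (a : G ⧸ Z) * b = b * a
    rw [← hxa, ← hyb, ← commutatorElement_eq_one_iff_mul_comm, ← map_commutatorElement]
    exact (QuotientGroup.eq_one_iff _).2 (hFF x hx y hy))⟩⟩
  haveI := hVc
  have hEcomm : ∀ a ∈ E, ∀ b ∈ E, ⁅a, b⁆ ∈ Z := fun a ha b hb => by
    refine (QuotientGroup.eq_one_iff _).1 ?_
    show QuotientGroup.mk' Z ⁅a, b⁆ = 1
    rw [map_commutatorElement, commutatorElement_eq_one_iff_mul_comm]
    exact congrArg Subtype.val (mul_comm (⟨_, ⟨a, ha, rfl⟩⟩ : V) (⟨_, ⟨b, hb, rfl⟩⟩ : V))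
  have hEnil : Group.IsNilpotent (G ⧸ E) :=
    haveI := hmeta
    Group.nilpotent_of_surjective (QuotientGroup.map F E (MonoidHom.id G) (by
        rw [Subgroup.comap_id]; exact le_sup_left))
      (fun y => by
        obtain ⟨g, rfl⟩ := QuotientGroup.mk'_surjective E y
        exact ⟨(g : G ⧸ F), rfl⟩)
  -- the character vanishes on `E` outside `Z`
  haveI := Fintype.ofFinite E
  have hres := res_irr_of_nilpotent_quotient hχ hp E hEnil
  have hvan : ∀ g ∈ E, g ∉ Z → χ g = 0 := by
    intro g hg hgZ
    by_contra hne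
    let N1 : Subgroup G := E ⊓ (Subgroup.centralizer
      ((E.map (QuotientGroup.mk' K) : Subgroup (G ⧸ K)) : Set (G ⧸ K))).comap (QuotientGroup.mk' K)
    haveI : (E.map (QuotientGroup.mk' K)).Normal :=
      Subgroup.Normal.map inferInstance _ (QuotientGroup.mk'_surjective K)
    haveI : N1.Normal := inferInstance
    have hg1 : g ∈ N1 := by
      refine ⟨hg, Subgroup.mem_centralizer_iff.2 ?_⟩
      rintro _ ⟨h, hh, rfl⟩
      rw [← commutatorElement_eq_one_iff_mul_comm, ← map_commutatorElement]
      refine (QuotientGroup.eq_one_iff _).2 ((hK _).2 ?_)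
      have h1 := hmul ⁅h, g⁆ (hEcomm h hh g hg) g
      rw [show ⁅h, g⁆ * g = h * g * h⁻¹ by rw [commutatorElement_def]; group,
        IsIrrCharacter.isClassFunction hχ g h] at h1
      exact (mul_left_cancel₀ hne (h1.trans (mul_comm _ _))).symm
    refine hgZ (hscal N1 inferInstance (fun a ha b hb => (QuotientGroup.eq_one_iff _).1 ?_) hg1)
    show QuotientGroup.mk' K ⁅a, b⁆ = 1
    rw [map_commutatorElement, commutatorElement_eq_one_iff_mul_comm]
    exact (Subgroup.mem_centralizer_iff.1 ha.2 _ ⟨b, hb.1, rfl⟩).symm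
  -- the order of `V` is the square of the degree
  have hcardV : Nat.card V = d * d := by
    have h1 : ∑ x : E, χ x * conj (χ x) = (Nat.card E : ℂ) := by
      have h := classInner_self_of_isIrr hres
      rwa [classInner, inv_mul_eq_iff_eq_mul₀ (Nat.cast_ne_zero.2 Nat.card_pos.ne'), mul_one] at h
    have h2 : ∀ x : E, χ x * conj (χ x) = if x ∈ Z.subgroupOf E then ((d * d : ℕ) : ℂ) else 0 := by
      intro x
      by_cases hx : x ∈ Z.subgroupOf E
      · have hx' : ‖χ (x : G)‖ = (χ 1).re := (hZ _).1 hx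
        rw [if_pos hx, Complex.mul_conj', hx', hd, Complex.natCast_re, Nat.cast_mul, sq,
          Complex.ofReal_natCast]
      · rw [if_neg hx, hvan x x.2 hx, zero_mul]
    rw [Finset.sum_congr rfl fun x _ => h2 x, ← Finset.sum_filter, Finset.sum_const, nsmul_eq_mul,
      ← (Z.subgroupOf E).card_mul_index,
      show (Finset.univ.filter fun x : E => x ∈ Z.subgroupOf E).card = Nat.card (Z.subgroupOf E) by
        rw [Nat.card_eq_fintype_card, Fintype.card_subtype], ← Nat.cast_mul, Nat.cast_inj] at h1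
    rw [Nat.eq_of_mul_eq_mul_left Nat.card_pos h1, hV, ← Subgroup.relIndex_ker, QuotientGroup.ker_mk',
      Subgroup.relIndex]
  -- the action on `V`
  let ψ : G →* MulAut V := MulAut.conjNormal.comp (QuotientGroup.mk' Z)
  have hψ : ∀ (g : G) (v : V), ((ψ g v : V) : G ⧸ Z) = g * (v : G ⧸ Z) * (g : G ⧸ Z)⁻¹ :=
    fun g v => MulAut.conjNormal_apply _ v
  have hψfix : ∀ (g : G) (v : V), ψ g v = v ↔ (g : G ⧸ Z) * v = v * (g : G ⧸ Z) := fun g v => by
    rw [Subtype.ext_iff, hψ, mul_inv_eq_iff_eq_mul]
  have hψE : ∀ g ∈ E, ∀ v : V, ψ g v = v := fun g hg v => (hψfix g v).2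
    (congrArg Subtype.val (mul_comm (⟨(g : G ⧸ Z), ⟨g, hg, rfl⟩⟩ : V) v))
  -- the class of `g` sees the fixed subgroup of `g`
  have hclass : ∀ g : G, (fix ψ g).index ∣ (Subgroup.centralizer ({g} : Set G)).index := by
    intro g
    let π : E →* V := ((QuotientGroup.mk' Z).comp E.subtype).codRestrict V fun x => ⟨x, x.2, rfl⟩
    have hπ : Function.Surjective π := fun v => by
      obtain ⟨x, hx, hxv⟩ := v.2
      exact ⟨⟨x, hx⟩, Subtype.ext hxv⟩
    rw [← Subgroup.index_comap_of_surjective (fix ψ g) hπ]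
    refine (Subgroup.index_dvd_of_le ?_).trans
      (relIndex_dvd_index_of_normal_right (Subgroup.centralizer ({g} : Set G)) E)
    intro x hx
    refine (hψfix g (π x)).2 ?_
    have h1 : g * (x : G) = (x : G) * g :=
      Subgroup.mem_centralizer_iff.1 (Subgroup.mem_subgroupOf.1 hx) g rfl
    exact congrArg (QuotientGroup.mk' Z) h1
  -- the two primes
  obtain ⟨r, s, hrs, hprimes⟩ := Finset.card_eq_two.1 h2
  have hpr : ∀ {t : ℕ}, t.Prime → t ∣ Nat.card G → t = r ∨ t = s := fun {t} ht htG => by
    have h1 : t ∈ (Nat.card G).primeFactors := Nat.mem_primeFactors.2 ⟨ht, htG, Nat.card_pos.ne'⟩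
    rw [hprimes] at h1
    simpa using h1
  haveI : Fact r.Prime := ⟨Nat.prime_of_mem_primeFactors (n := Nat.card G) (by rw [hprimes]; simp)⟩
  haveI : Fact s.Prime := ⟨Nat.prime_of_mem_primeFactors (n := Nat.card G) (by rw [hprimes]; simp)⟩
  -- an element of one Sylow subgroup with few fixed points on the other primary part
  have main : ∀ (a b : ℕ) [Fact a.Prime] [Fact b.Prime], a ≠ b →
      (∀ t : ℕ, t.Prime → t ∣ Nat.card G → t = a ∨ t = b) →
      ∃ x : G, (∃ j, x ^ b ^ j = 1) ∧ ∀ g : G, (∀ v, ψ g v = v → ψ x v = v) →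
        a ^ d.factorization a ∣ (fix ψ g).index := by
    intro a b _ _ hab hall
    obtain ⟨S⟩ := (inferInstance : Nonempty (Sylow b G))
    obtain ⟨R⟩ := (inferInstance : Nonempty (Sylow a G))
    obtain ⟨Pa⟩ := (inferInstance : Nonempty (Sylow a V))
    haveI : (Pa : Subgroup V).Normal := inferInstance
    haveI : (Pa : Subgroup V).Characteristic := Sylow.characteristic_of_normal Pa inferInstance
    set Va : Subgroup (G ⧸ Z) := (Pa : Subgroup V).map V.subtype
    haveI : Va.Normal := CfsgLib.Cores.normal_map_subtype V Pa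
    have hVaV : Va ≤ V := Subgroup.map_subtype_le _
    haveI : IsMulCommutative Va := ⟨⟨fun x y => Subtype.ext (show (x : G ⧸ Z) * y = y * x from
      congrArg (fun v : V => (v : G ⧸ Z)) (mul_comm (⟨x, hVaV x.2⟩ : V) ⟨y, hVaV y.2⟩))⟩⟩
    let φ : (S : Subgroup G) →* MulAut Va :=
      (MulAut.conjNormal.comp (QuotientGroup.mk' Z)).comp (S : Subgroup G).subtype
    have hφfix : ∀ (x : (S : Subgroup G)) (v : Va),
        φ x v = v ↔ ((x : G) : G ⧸ Z) * v = v * ((x : G) : G ⧸ Z) := fun x v => by
      rw [Subtype.ext_iff]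
      show ((MulAut.conjNormal ((x : G) : G ⧸ Z) v : Va) : G ⧸ Z) = v ↔ _
      rw [MulAut.conjNormal_apply, mul_inv_eq_iff_eq_mul]
    have hVap : IsPGroup a Va := Pa.2.map _
    -- no common fixed point
    have hnofix : ∀ v : Va, (∀ x, φ x v = v) → v = 1 := by
      haveI := hEnil
      let SE : Sylow b (G ⧸ E) := S.mapSurjective (QuotientGroup.mk'_surjective E)
      haveI : (SE : Subgroup (G ⧸ E)).Normal := inferInstance
      set M : Subgroup G := (SE : Subgroup (G ⧸ E)).comap (QuotientGroup.mk' E)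
      haveI : M.Normal := Subgroup.Normal.comap inferInstance _
      haveI : (M.map (QuotientGroup.mk' Z)).Normal :=
        Subgroup.Normal.map inferInstance _ (QuotientGroup.mk'_surjective Z)
      set U : Subgroup (G ⧸ Z) := Va ⊓
        Subgroup.centralizer ((M.map (QuotientGroup.mk' Z) : Subgroup (G ⧸ Z)) : Set (G ⧸ Z))
      haveI : U.Normal := inferInstance
      intro v hv
      have hvU : (v : G ⧸ Z) ∈ U := by
        refine ⟨v.2, Subgroup.mem_centralizer_iff.2 ?_⟩
        rintro _ ⟨m, hm, rfl⟩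
        have hm' : QuotientGroup.mk' E m ∈ (S : Subgroup G).map (QuotientGroup.mk' E) := by
          rw [← Sylow.coe_mapSurjective (QuotientGroup.mk'_surjective E) S]
          exact hm
        obtain ⟨x, hx, hxm⟩ := hm'
        have h1 : x⁻¹ * m ∈ E := QuotientGroup.eq.1 hxm
        have h2 := (hψfix _ ⟨v, hVaV v.2⟩).1 (hψE _ h1 _)
        have h3 := (hφfix ⟨x, hx⟩ v).1 (hv _)
        show (m : G ⧸ Z) * (v : G ⧸ Z) = v * (m : G ⧸ Z)
        rw [← mul_inv_cancel_left x m, QuotientGroup.mk_mul, mul_assoc,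
          show ((x⁻¹ * m : G) : G ⧸ Z) * (v : G ⧸ Z) = v * ((x⁻¹ * m : G) : G ⧸ Z) from h2,
          ← mul_assoc, h3, mul_assoc]
      by_contra hv1
      have hUne : U ≠ ⊥ := fun h => hv1 (Subtype.ext (by
        rw [h, Subgroup.mem_bot] at hvU
        exact hvU))
      set X := U ⊔ (R : Subgroup G).map (QuotientGroup.mk' Z)
      have hXp : IsPGroup a X :=
        (hVap.to_le inf_le_left).to_sup_of_normal_left (R.2.map _)
      haveI := hXp.isNilpotent
      have hne : U.subgroupOf X ≠ ⊥ := fun h => hUne (by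
        rw [Subgroup.subgroupOf_eq_bot, disjoint_iff, inf_eq_left.2 le_sup_left] at h
        exact h)
      obtain ⟨⟨u, huX⟩, ⟨huU, huc⟩, hu1⟩ := (Subgroup.bot_or_exists_ne_one _).resolve_left
        (CfsgLib.PSolvable.inf_center_ne_bot hne)
      have huU' : u ∈ U := huU
      -- `u` is central in `G / Z`
      have hucen : ∀ g : G, (g : G ⧸ Z) * u = u * (g : G ⧸ Z) := by
        have hle : (⊤ : Subgroup G) ≤
            (Subgroup.centralizer ({u} : Set (G ⧸ Z))).comap (QuotientGroup.mk' Z) := by
          have hsup : (R : Subgroup G) ⊔ (S : Subgroup G) = ⊤ := by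
            refine Subgroup.eq_top_of_card_eq _ (Nat.dvd_antisymm (Subgroup.card_subgroup_dvd_card _) ?_)
            refine (Nat.dvd_iff_prime_pow_dvd_dvd _ _).2 fun t k ht htk => ?_
            rcases Nat.eq_zero_or_pos k with rfl | hk
            · simp
            rcases hall t ht ((dvd_pow_self t hk.ne').trans htk) with rfl | rfl
            · refine dvd_trans ?_ (Subgroup.card_dvd_of_le le_sup_left)
              rw [R.card_eq_multiplicity]
              exact pow_dvd_pow t ((ht.pow_dvd_iff_le_factorization Nat.card_pos.ne').1 htk)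
            · refine dvd_trans ?_ (Subgroup.card_dvd_of_le le_sup_right)
              rw [S.card_eq_multiplicity]
              exact pow_dvd_pow t ((ht.pow_dvd_iff_le_factorization Nat.card_pos.ne').1 htk)
          rw [← hsup]
          refine sup_le (fun x hx => Subgroup.mem_centralizer_singleton_iff.2 ?_)
            (fun x hx => Subgroup.mem_centralizer_singleton_iff.2 ?_)
          · exact congrArg Subtype.val (Subgroup.mem_center_iff.1 huc
              ⟨(x : G ⧸ Z), le_sup_right (a := U) ⟨x, hx, rfl⟩⟩)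
          · have hxM : x ∈ M := by
              show QuotientGroup.mk' E x ∈ (SE : Subgroup (G ⧸ E))
              rw [Sylow.coe_mapSurjective]
              exact ⟨x, hx, rfl⟩
            exact Subgroup.mem_centralizer_iff.1 huU'.2 _ ⟨x, hxM, rfl⟩
        exact fun g => Subgroup.mem_centralizer_singleton_iff.1 (hle (Subgroup.mem_top g))
      obtain ⟨e, -, rfl⟩ := hVaV huU'.1
      set L : Subgroup G := (Subgroup.zpowers (e : G ⧸ Z)).comap (QuotientGroup.mk' Z)
      haveI : (Subgroup.zpowers (e : G ⧸ Z)).Normal :=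
        CfsgLib.Brauer.normal_of_le_center (Subgroup.zpowers_le.2 (Subgroup.mem_center_iff.2
          fun y => by
            obtain ⟨g, rfl⟩ := QuotientGroup.mk'_surjective Z y
            exact hucen g))
      have hLK : ∀ x ∈ L, ∀ y ∈ L, ⁅x, y⁆ ∈ K := by
        intro x hx y hy
        have key : ∀ x ∈ L, ∃ i : ℤ, ∃ z ∈ Z, x = z * e ^ i := fun x hx => by
          obtain ⟨i, hi⟩ := Subgroup.mem_zpowers_iff.1 (Subgroup.mem_comap.1 hx)
          refine ⟨i, x * (e ^ i)⁻¹, ?_, (inv_mul_cancel_right x _).symm⟩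
          rw [← QuotientGroup.eq_one_iff, QuotientGroup.mk_mul, QuotientGroup.mk_inv,
            QuotientGroup.mk_zpow, hi]
          exact mul_inv_cancel _
        obtain ⟨i, z, hz, rfl⟩ := key x hx
        obtain ⟨j, w, hw, rfl⟩ := key y hy
        refine (QuotientGroup.eq_one_iff _).1 ?_
        show QuotientGroup.mk' K ⁅z * e ^ i, w * e ^ j⁆ = 1
        rw [map_commutatorElement, commutatorElement_eq_one_iff_mul_comm]
        have hc : ∀ z ∈ Z, ∀ g, QuotientGroup.mk' K z * QuotientGroup.mk' K g =
            QuotientGroup.mk' K g * QuotientGroup.mk' K z := fun z hz g => by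
          rw [← commutatorElement_eq_one_iff_mul_comm, ← map_commutatorElement]
          exact (QuotientGroup.eq_one_iff _).2 (hZK z hz g)
        rw [map_mul, map_mul, map_zpow, map_zpow]
        have c1 : Commute (QuotientGroup.mk' K z) (QuotientGroup.mk' K w) := hc z hz w
        have c2 : Commute (QuotientGroup.mk' K z) (QuotientGroup.mk' K e) := hc z hz e
        have c3 : Commute (QuotientGroup.mk' K w) (QuotientGroup.mk' K e) := hc w hw e
        exact ((c1.mul_right (c2.zpow_right j)).mul_left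
          ((c3.symm.zpow_left i).mul_right (Commute.zpow_zpow_self _ i j))).eq
      have heZ : e ∈ Z := hscal L inferInstance hLK (Subgroup.mem_zpowers (e : G ⧸ Z))
      exact hu1 (Subtype.ext ((QuotientGroup.eq_one_iff e).2 heZ))
    obtain ⟨⟨x, hxS⟩, hx⟩ := exists_sq_card_fix_le hab S.2 hVap φ hnofix
    refine ⟨x, ?_, fun g hg => ?_⟩
    · obtain ⟨j, hj⟩ := S.2 ⟨x, hxS⟩
      exact ⟨j, congrArg Subtype.val hj⟩
    -- compare with the fixed subgroup of `g` on the primary part
    set W := fix ψ g
    have hle : Nat.card ((Pa : Subgroup V) ⊓ W : Subgroup V) ≤ Nat.card (fix φ ⟨x, hxS⟩) := by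
      rw [← Subgroup.card_map_of_injective V.subtype_injective,
        ← Subgroup.card_map_of_injective Va.subtype_injective]
      refine Subgroup.card_le_of_le ?_
      rintro _ ⟨v, ⟨hvP, hvW⟩, rfl⟩
      exact ⟨⟨(v : G ⧸ Z), ⟨v, hvP, rfl⟩⟩, (hφfix _ _).2 ((hψfix x v).1 (hg v hvW)), rfl⟩
    have hVcard : Nat.card Va = a ^ (2 * d.factorization a) := by
      rw [Subgroup.card_map_of_injective V.subtype_injective, Pa.card_eq_multiplicity, hcardV,
        Nat.factorization_mul hd0.ne' hd0.ne', Finsupp.add_apply, two_mul]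
    obtain ⟨k, hk⟩ := IsPGroup.iff_card.1 (Pa.2.to_le (inf_le_left : (Pa : Subgroup V) ⊓ W ≤ Pa))
    have hk2 : 2 * k ≤ 2 * d.factorization a := by
      rw [hk] at hle
      have := (Nat.pow_le_pow_left hle 2).trans hx
      rw [hVcard, ← pow_mul] at this
      have := (Nat.pow_le_pow_iff_right (Fact.out : a.Prime).one_lt).1 this
      omega
    refine Dvd.dvd.trans ?_ (Subgroup.relIndex_dvd_index_of_normal W (Pa : Subgroup V))
    have h1 : W.relIndex (Pa : Subgroup V) * a ^ k = a ^ (2 * d.factorization a) := by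
      rw [← hVcard, Subgroup.card_map_of_injective V.subtype_injective, ← hk,
        ← Subgroup.inf_relIndex_right W, inf_comm, ← Subgroup.relIndex_bot_left,
        ← Subgroup.relIndex_bot_left, mul_comm,
        Subgroup.relIndex_mul_relIndex _ _ _ bot_le inf_le_left]
    have h2 : W.relIndex (Pa : Subgroup V) = a ^ (2 * d.factorization a - k) := by
      refine Nat.eq_of_mul_eq_mul_right (pow_pos (Fact.out : a.Prime).pos k) (h1.trans ?_)
      rw [← pow_add]
      congr 1
      omega
    rw [h2]
    exact pow_dvd_pow a (by omega)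
  obtain ⟨x, ⟨i, hxi⟩, hx⟩ := main r s hrs (fun t ht h => hpr ht h)
  obtain ⟨y, ⟨j, hyj⟩, hy⟩ := main s r hrs.symm (fun t ht h => (hpr ht h).symm)
  refine ⟨x * y, ?_⟩
  have hxy : (x : G ⧸ E) * y = y * x := by
    haveI := hEnil
    have hA : IsPGroup s (Subgroup.zpowers (x : G ⧸ E)) := IsPGroup.of_card_dvd_pow (n := i) (by
      rw [Nat.card_zpowers]
      exact orderOf_dvd_of_pow_eq_one (by rw [← QuotientGroup.mk_pow, hxi]; rfl))
    have hB : IsPGroup r (Subgroup.zpowers (y : G ⧸ E)) := IsPGroup.of_card_dvd_pow (n := j) (by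
      rw [Nat.card_zpowers]
      exact orderOf_dvd_of_pow_eq_one (by rw [← QuotientGroup.mk_pow, hyj]; rfl))
    exact (CfsgLib.FixedPointFree.commute_of_isNilpotent hrs.symm hA hB (Subgroup.mem_zpowers _)
      (Subgroup.mem_zpowers _)).eq
  have hgen : ∀ v, ψ (x * y) v = v → ψ x v = v ∧ ψ y v = v := by
    intro v hv
    let St : Subgroup G :=
      { carrier := {g | ψ g v = v}
        one_mem' := by show ψ 1 v = v; rw [map_one]; rfl
        mul_mem' := fun {g h} hg hh => by
          show ψ (g * h) v = v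
          rw [map_mul, MulAut.mul_apply, show ψ h v = v from hh, show ψ g v = v from hg]
        inv_mem' := fun {g} hg => by
          show ψ g⁻¹ v = v
          conv_lhs => arg 2; rw [← show ψ g v = v from hg]
          rw [← MulAut.mul_apply, ← map_mul, inv_mul_cancel, map_one]; rfl }
    have hES : E ≤ St := fun g hg => hψE g hg v
    have hcop : (r ^ j).Coprime (s ^ i) := ((Nat.coprime_primes Fact.out Fact.out).2 hrs).pow j i
    have hq : ∀ (x y : G) (r s i j : ℕ), (x : G ⧸ E) * y = y * x → y ^ r ^ j = 1 → x ^ s ^ i = 1 →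
        (r ^ j).Coprime (s ^ i) → x * y ∈ St → x ∈ St := by
      intro x y r s i j hxy hyj hxi hcop hmem
      obtain ⟨m, hm⟩ := exists_pow_eq_self_of_coprime (x := (x : G ⧸ E)) (n := r ^ j)
        (hcop.coprime_dvd_right (orderOf_dvd_of_pow_eq_one (n := s ^ i) (by
          rw [← QuotientGroup.mk_pow, hxi]; rfl)))
      have h1 : (((x * y) ^ (r ^ j * m) : G) : G ⧸ E) = (x : G ⧸ E) := by
        rw [QuotientGroup.mk_pow, QuotientGroup.mk_mul, Commute.mul_pow hxy, pow_mul, hm,
          pow_mul (y : G ⧸ E), ← QuotientGroup.mk_pow, hyj, QuotientGroup.mk_one, one_pow, mul_one]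
      have h2 := QuotientGroup.eq.1 h1
      have h3 := mul_mem (pow_mem hmem (r ^ j * m)) (hES h2)
      rwa [mul_inv_cancel_left] at h3
    refine ⟨hq x y r s i j hxy hyj hxi hcop hv, ?_⟩
    refine hq y x s r j i hxy.symm hxi hyj hcop.symm ?_
    -- `y * x` is congruent to `x * y` modulo `E`
    have h3 := mul_mem (show x * y ∈ St from hv) (hES (QuotientGroup.eq.1
      (show ((x * y : G) : G ⧸ E) = ((y * x : G) : G ⧸ E) from hxy)))
    rwa [mul_inv_cancel_left] at h3
  rw [hdeg]
  refine Dvd.dvd.trans ?_ (hclass (x * y))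
  refine (Nat.dvd_iff_prime_pow_dvd_dvd _ _).2 fun t k ht htk => ?_
  rcases Nat.eq_zero_or_pos k with rfl | hk
  · simp
  have htG : t ∣ Nat.card G :=
    ((dvd_pow_self t hk.ne').trans htk).trans
      ((Dvd.intro _ rfl : d ∣ d * d).trans (hcardV ▸ (Subgroup.card_subgroup_dvd_card V).trans
        (Subgroup.card_quotient_dvd_card Z)))
  have hkd : k ≤ d.factorization t := (ht.pow_dvd_iff_le_factorization hd0.ne').1 htk
  rcases hpr ht htG with rfl | rfl
  · exact (pow_dvd_pow t hkd).trans (hx _ fun v hv => (hgen v hv).1)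
  · exact (pow_dvd_pow t hkd).trans (hy _ fun v hv => (hgen v hv).2)

end CfsgLib.PrimitiveChar
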